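import Mathlib

/-!
# Centralizers of involutions in alternating groups: elements (helper313)

`s` is a permutation with `s * s = 1`.
* `tr s x = (x, s x)`, `bs s x y = (x y)(s x, s y)`, `CC s` : the even permutations commuting with `s`;
* `key` : a subgroup `N` of `CC s` normalized by `CC s`, trivial on the fixed points of `s`, containing an
  element different from `1` and `s`, contains some product `tr x * tr y` of two different pairs;
* `spread` : and then all of them; `base_mem` : and all even elements of the base group.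
-/

set_option autoImplicit false
set_option linter.unusedSectionVars false

namespace Cfsg.Agent.H313.Alt

open Equiv Equiv.Perm

variable {Ω : Type*} [DecidableEq Ω] {s : Perm Ω}

/-- the transposition of a pair -/
def tr (s : Perm Ω) (x : Ω) : Perm Ω := swap x (s x)

/-- the exchange of two pairs -/
def bs (s : Perm Ω) (x y : Ω) : Perm Ω := swap x y * swap (s x) (s y)

theorem ss (hs : s * s = 1) (x : Ω) : s (s x) = x := by
  have := congrArg (fun p : Perm Ω => p x) hs
  simpa using this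

theorem app_comm {c : Perm Ω} (hc : c * s = s * c) (x : Ω) : c (s x) = s (c x) := by
  have := congrArg (fun p : Perm Ω => p x) hc
  simpa using this

theorem comm_of_app {c : Perm Ω} (h : ∀ x, c (s x) = s (c x)) : c * s = s * c := by
  ext x
  simpa using h x

theorem comm_mul {c d : Perm Ω} (hc : c * s = s * c) (hd : d * s = s * d) : c * d * s = s * (c * d) := by
  rw [mul_assoc, hd, ← mul_assoc, hc, mul_assoc]

theorem comm_inv {c : Perm Ω} (hc : c * s = s * c) : c⁻¹ * s = s * c⁻¹ := by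
  rw [inv_mul_eq_iff_eq_mul, ← mul_assoc, hc, mul_assoc, mul_inv_cancel, mul_one]

theorem tr_s (hs : s * s = 1) (x : Ω) : tr s (s x) = tr s x := by
  rw [tr, ss hs, swap_comm, tr]

theorem conj_tr {c : Perm Ω} (hc : c * s = s * c) (x : Ω) : c * tr s x * c⁻¹ = tr s (c x) := by
  rw [tr, tr, ← app_comm hc, swap_apply_apply]

theorem conj_bs {c : Perm Ω} (hc : c * s = s * c) (x y : Ω) : c * bs s x y * c⁻¹ = bs s (c x) (c y) := by
  have h1 := swap_apply_apply c x y
  have h2 := swap_apply_apply c (s x) (s y)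
  rw [bs, bs, ← app_comm hc, ← app_comm hc, h1, h2]
  group

theorem tr_comm (hs : s * s = 1) (x : Ω) : tr s x * s = s * tr s x := by
  have h1 := conj_tr (s := s) (c := s) rfl x
  rw [tr_s hs, mul_inv_eq_iff_eq_mul] at h1
  exact h1.symm

theorem tr_tr (x : Ω) : tr s x * tr s x = 1 := swap_mul_self _ _

theorem tr_inv (x : Ω) : (tr s x)⁻¹ = tr s x := swap_inv _ _

theorem tr_left (x : Ω) : tr s x x = s x := swap_apply_left _ _

theorem tr_right (x : Ω) : tr s x (s x) = x := swap_apply_right _ _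

theorem tr_of_ne {x y : Ω} (h1 : y ≠ x) (h2 : y ≠ s x) : tr s x y = y := swap_apply_of_ne_of_ne h1 h2

theorem tr_of_fix {x : Ω} (h : s x = x) : tr s x = 1 := by rw [tr, h, swap_self]; rfl

theorem swap_swap_comm {a b c d : Ω} (h1 : c ≠ a) (h2 : c ≠ b) (h3 : d ≠ a) (h4 : d ≠ b) :
    swap a b * swap c d = swap c d * swap a b := by
  have h := swap_apply_apply (swap a b) c d
  rw [swap_apply_of_ne_of_ne h1 h2, swap_apply_of_ne_of_ne h3 h4, eq_mul_inv_iff_mul_eq] at h
  exact h.symm

theorem sw_comm {f g : Ω} (hf : s f = f) (hg : s g = g) : swap f g * s = s * swap f g := by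
  have h := swap_apply_apply s f g
  rw [hf, hg, eq_mul_inv_iff_mul_eq] at h
  exact h

/-- two points of different pairs -/
structure Dis (s : Perm Ω) (x y : Ω) : Prop where
  x1 : s x ≠ x
  y1 : s y ≠ y
  ne : x ≠ y
  ns : x ≠ s y

theorem Dis.ns' (hs : s * s = 1) {x y : Ω} (h : Dis s x y) : s x ≠ y := fun e => h.ns (by rw [← e, ss hs])

theorem Dis.ss (hs : s * s = 1) {x y : Ω} (h : Dis s x y) : s x ≠ s y := fun e => h.ne (s.injective e)

theorem Dis.symm (hs : s * s = 1) {x y : Ω} (h : Dis s x y) : Dis s y x :=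
  ⟨h.y1, h.x1, h.ne.symm, fun e => h.ns' hs e.symm⟩

theorem Dis.left (hs : s * s = 1) {x y : Ω} (h : Dis s x y) : Dis s (s x) y :=
  ⟨fun e => h.x1 (s.injective e), h.y1, h.ns' hs, h.ss hs⟩

theorem Dis.right (hs : s * s = 1) {x y : Ω} (h : Dis s x y) : Dis s x (s y) := ((h.symm hs).left hs).symm hs

theorem bs_comm (hs : s * s = 1) {x y : Ω} (h : Dis s x y) : bs s x y * s = s * bs s x y := by
  have h1 := conj_bs (s := s) (c := s) rfl x y
  have h2 : bs s (s x) (s y) = bs s x y := by
    rw [bs, Alt.ss hs, Alt.ss hs, bs]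
    exact swap_swap_comm h.x1.symm h.ns (h.ns' hs).symm h.y1.symm
  rw [h2, mul_inv_eq_iff_eq_mul] at h1
  exact h1.symm

theorem bs_left (hs : s * s = 1) {x y : Ω} (h : Dis s x y) : bs s x y x = y := by
  rw [bs, Perm.mul_apply, swap_apply_of_ne_of_ne h.x1.symm h.ns, swap_apply_left]

theorem bs_right (hs : s * s = 1) {x y : Ω} (h : Dis s x y) : bs s x y y = x := by
  rw [bs, Perm.mul_apply, swap_apply_of_ne_of_ne (h.ns' hs).symm h.y1.symm, swap_apply_right]

theorem bs_of_ne {x y w : Ω} (h1 : w ≠ x) (h2 : w ≠ y) (h3 : w ≠ s x) (h4 : w ≠ s y) : bs s x y w = w := by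
  rw [bs, Perm.mul_apply, swap_apply_of_ne_of_ne h3 h4, swap_apply_of_ne_of_ne h1 h2]

theorem bs_bs (hs : s * s = 1) {x y : Ω} (h : Dis s x y) : bs s x y * bs s x y = 1 := by
  have h1 : bs s x y = swap (s x) (s y) * swap x y := by
    rw [bs]; exact swap_swap_comm (h.x1) (h.ns' hs) (h.ns).symm h.y1
  nth_rewrite 2 [h1]
  rw [bs, mul_assoc, ← mul_assoc (swap (s x) (s y)), swap_mul_self, one_mul, swap_mul_self]

variable [Fintype Ω]

/-- even permutations commuting with `s` -/
def CC (s : Perm Ω) : Subgroup (Perm Ω) := Subgroup.centralizer ({s} : Set (Perm Ω)) ⊓ alternatingGroup Ω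

theorem mem_CC {c : Perm Ω} : c ∈ CC s ↔ c * s = s * c ∧ sign c = 1 := by
  rw [CC, Subgroup.mem_inf, Subgroup.mem_centralizer_singleton_iff, mem_alternatingGroup]

theorem sign_tr {x : Ω} (h : s x ≠ x) : sign (tr s x) = -1 := sign_swap h.symm

theorem sign_bs {x y : Ω} (h : x ≠ y) : sign (bs s x y) = 1 := by
  rw [bs, Perm.sign_mul, sign_swap h, sign_swap (fun e => h (s.injective e))]
  rfl

theorem bs_mem (hs : s * s = 1) {x y : Ω} (h : Dis s x y) : bs s x y ∈ CC s := mem_CC.2 ⟨bs_comm hs h, sign_bs h.ne⟩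

theorem trtr_mem (hs : s * s = 1) {x y : Ω} (hx : s x ≠ x) (hy : s y ≠ y) : tr s x * tr s y ∈ CC s := by
  refine mem_CC.2 ⟨comm_mul (tr_comm hs x) (tr_comm hs y), ?_⟩
  rw [Perm.sign_mul, sign_tr hx, sign_tr hy]; rfl

theorem trsw_mem (hs : s * s = 1) {x f g : Ω} (hx : s x ≠ x) (hf : s f = f) (hg : s g = g) (hfg : f ≠ g) :
    tr s x * swap f g ∈ CC s := by
  refine mem_CC.2 ⟨comm_mul (tr_comm hs x) (sw_comm hf hg), ?_⟩
  rw [Perm.sign_mul, sign_tr hx, sign_swap hfg]; rfl

section key

variable {N : Subgroup (Perm Ω)}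

/-- **The key lemma.** -/
theorem key (hs : s * s = 1) (hN : ∀ c ∈ CC s, ∀ n ∈ N, c * n * c⁻¹ ∈ N) (hNC : ∀ n ∈ N, n * s = s * n)
    (hfix : ∀ n ∈ N, ∀ x, s x = x → n x = x) {f g : Ω} (hf : s f = f) (hg : s g = g) (hfg : f ≠ g)
    {y : Perm Ω} (hy : y ∈ N) (h1 : y ≠ 1) (h2 : y ≠ s) : ∃ a b, Dis s a b ∧ tr s a * tr s b ∈ N := by
  by_cases hbase : ∀ x, y x = x ∨ y x = s x
  · obtain ⟨x, hx⟩ : ∃ x, y x ≠ x := by
      by_contra hc
      push Not at hc
      exact h1 (Equiv.ext hc)
    have hx' : y x = s x := (hbase x).resolve_left hx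
    obtain ⟨w, hw⟩ : ∃ w, y w ≠ s w := by
      by_contra hc
      push Not at hc
      exact h2 (Equiv.ext hc)
    have hw' : y w = w := (hbase w).resolve_right hw
    have hd : Dis s x w := by
      refine ⟨fun e => hx (hx'.trans e), fun e => hw (hw'.trans e.symm), fun e => hx (by rw [e, hw']), fun e => ?_⟩
      apply hx
      rw [e, app_comm (hNC y hy), hw']
    refine ⟨x, w, hd, ?_⟩
    have hb := bs_mem hs hd
    have e1 : y * bs s x w * y⁻¹ = tr s x * bs s x w * (tr s x)⁻¹ := by
      rw [conj_bs (hNC y hy), conj_bs (tr_comm hs x), hx', hw', tr_left, tr_of_ne hd.ne.symm (hd.ns' hs).symm]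
    have e2 := conj_tr (bs_comm hs hd) x
    rw [bs_left hs hd] at e2
    have e3 : tr s x * tr s w = y * (bs s x w * y⁻¹ * (bs s x w)⁻¹) := by
      rw [← e2]
      have : y * (bs s x w * y⁻¹ * (bs s x w)⁻¹) = (y * bs s x w * y⁻¹) * (bs s x w)⁻¹ := by group
      rw [this, e1, tr_inv]
      group
    rw [e3]
    exact N.mul_mem hy (hN _ hb _ (N.inv_mem hy))
  · push Not at hbase
    obtain ⟨x, hx, hx'⟩ := hbase
    have hsx : s x ≠ x := fun e => hx (hfix y hy x e)
    have hd : Dis s (y x) x := by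
      refine ⟨fun e => ?_, hsx, hx, hx'⟩
      rw [← app_comm (hNC y hy)] at e
      exact hsx (y.injective e)
    refine ⟨y x, x, hd, ?_⟩
    have hb := trsw_mem hs hsx hf hg hfg
    have e1 := conj_tr (hNC y hy) x
    have e2 := swap_apply_apply y f g
    rw [hfix y hy f hf, hfix y hy g hg] at e2
    have e3 : tr s (y x) * tr s x = y * ((tr s x * swap f g) * y⁻¹ * (tr s x * swap f g)⁻¹) := by
      have : y * ((tr s x * swap f g) * y⁻¹ * (tr s x * swap f g)⁻¹) =
        (y * tr s x * y⁻¹) * (y * swap f g * y⁻¹) * (swap f g)⁻¹ * (tr s x)⁻¹ := by group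
      rw [this, e1, ← e2, tr_inv]
      group
    rw [e3]
    exact N.mul_mem hy (hN _ hb _ (N.inv_mem hy))

/-- All the products of two pairs. -/
theorem spread (hs : s * s = 1) (hN : ∀ c ∈ CC s, ∀ n ∈ N, c * n * c⁻¹ ∈ N) {a b : Ω} (hab : Dis s a b)
    (h : tr s a * tr s b ∈ N) : ∀ x y, s x ≠ x → s y ≠ y → tr s x * tr s y ∈ N := by
  have step : ∀ y, s y ≠ y → tr s y * tr s b ∈ N := by
    intro y hy
    by_cases h1 : y = b
    · rw [h1, tr_tr]; exact N.one_mem
    by_cases h2 : y = s b
    · rw [h2, tr_s hs, tr_tr]; exact N.one_mem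
    by_cases h3 : y = a
    · rw [h3]; exact h
    by_cases h4 : y = s a
    · rw [h4, tr_s hs]; exact h
    have hd : Dis s a y := ⟨hab.x1, hy, fun e => h3 e.symm, fun e => h4 (by rw [e, ss hs])⟩
    have h5 := hN _ (bs_mem hs hd) _ h
    have e1 := conj_tr (bs_comm hs hd) a
    have e2 := conj_tr (bs_comm hs hd) b
    rw [bs_left hs hd] at e1
    rw [bs_of_ne hab.ne.symm (fun e => h1 e.symm) (hab.ns' hs).symm (fun e => h2 (by rw [e, ss hs]))] at e2
    have e3 : tr s y * tr s b = bs s a y * (tr s a * tr s b) * (bs s a y)⁻¹ := by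
      have : bs s a y * (tr s a * tr s b) * (bs s a y)⁻¹ =
        (bs s a y * tr s a * (bs s a y)⁻¹) * (bs s a y * tr s b * (bs s a y)⁻¹) := by group
      rw [this, e1, e2]
    rw [e3]; exact h5
  intro x y hx hy
  have h1 := step x hx
  have h2 := N.inv_mem (step y hy)
  have h3 := N.mul_mem h1 h2
  rw [mul_inv_rev, tr_inv, tr_inv] at h3
  have e : tr s x * tr s b * (tr s b * tr s y) = tr s x * tr s y := by
    rw [mul_assoc, ← mul_assoc (tr s b), tr_tr, one_mul]
  rwa [e] at h3

/-- The even elements of the base group. -/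
theorem base_mem (hs : s * s = 1) (h : ∀ x y, s x ≠ x → s y ≠ y → tr s x * tr s y ∈ N) (n : ℕ) :
    ∀ c : Perm Ω, c.support.card = n → c * s = s * c → (∀ x, c x = x ∨ c x = s x) → sign c = 1 → c ∈ N := by
  induction n using Nat.strong_induction_on with
  | _ n ih =>
    intro c hn hc hb hsg
    by_cases h1 : c = 1
    · rw [h1]; exact N.one_mem
    obtain ⟨x, hx⟩ : ∃ x, c x ≠ x := by
      by_contra hcc
      push Not at hcc
      exact h1 (Equiv.ext hcc)
    have hx' : c x = s x := (hb x).resolve_left hx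
    have hsx : s x ≠ x := fun e => hx (hx'.trans e)
    have hcsx : c (s x) = x := by rw [app_comm hc, hx', ss hs]
    have h2 : ∃ y, y ≠ x ∧ y ≠ s x ∧ c y ≠ y := by
      by_contra hcc
      push Not at hcc
      have : c = tr s x := by
        ext w
        by_cases e1 : w = x
        · rw [e1, hx', tr_left]
        by_cases e2 : w = s x
        · rw [e2, hcsx, tr_right]
        rw [hcc w e1 e2, tr_of_ne e1 e2]
      rw [this, sign_tr hsx] at hsg
      exact absurd hsg (by decide)
    obtain ⟨y, hyx, hysx, hy⟩ := h2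
    have hy' : c y = s y := (hb y).resolve_left hy
    have hsy : s y ≠ y := fun e => hy (hy'.trans e)
    have hcsy : c (s y) = y := by rw [app_comm hc, hy', ss hs]
    have hd : Dis s x y := ⟨hsx, hsy, hyx.symm, fun e => hysx (by rw [e, ss hs])⟩
    set d := c * (tr s x * tr s y) with hd'
    have hdv : ∀ w, w ≠ x → w ≠ s x → w ≠ y → w ≠ s y → d w = c w := by
      intro w a1 a2 a3 a4
      rw [hd', Perm.mul_apply, Perm.mul_apply, tr_of_ne a3 a4, tr_of_ne a1 a2]
    have d1 : d x = x := by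
      rw [hd', Perm.mul_apply, Perm.mul_apply, tr_of_ne hd.ne hd.ns, tr_left, hcsx]
    have d2 : d (s x) = s x := by
      rw [hd', Perm.mul_apply, Perm.mul_apply, tr_of_ne (hd.ns' hs) (hd.ss hs), tr_right, hx']
    have d3 : d y = y := by
      rw [hd', Perm.mul_apply, Perm.mul_apply, tr_left, tr_of_ne (hd.ns).symm (hd.ss hs).symm, hcsy]
    have d4 : d (s y) = s y := by
      rw [hd', Perm.mul_apply, Perm.mul_apply, tr_right, tr_of_ne hyx hysx, hy']
    have hall : ∀ w, d w = w ∨ (d w = c w ∧ w ≠ x) := by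
      intro w
      by_cases a1 : w = x
      · left; rw [a1, d1]
      by_cases a2 : w = s x
      · left; rw [a2, d2]
      by_cases a3 : w = y
      · left; rw [a3, d3]
      by_cases a4 : w = s y
      · left; rw [a4, d4]
      exact Or.inr ⟨hdv w a1 a2 a3 a4, a1⟩
    have hlt : d.support.card < c.support.card := by
      apply Finset.card_lt_card
      rw [Finset.ssubset_iff_of_subset]
      · exact ⟨x, mem_support.2 hx, fun e => (mem_support.1 e) d1⟩
      · intro w hw
        rw [mem_support] at hw ⊢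
        rcases hall w with e | ⟨e, -⟩
        · exact absurd e hw
        · rwa [e] at hw
    have hdN := ih d.support.card (hn ▸ hlt) d rfl (comm_mul hc (comm_mul (tr_comm hs x) (tr_comm hs y)))
      (fun w => by
        rcases hall w with e | ⟨e, -⟩
        · exact Or.inl e
        · rw [e]; exact hb w)
      (by rw [hd', Perm.sign_mul, Perm.sign_mul, sign_tr hsx, sign_tr hsy, hsg]; rfl)
    have h3 := N.mul_mem hdN (N.inv_mem (h x y hsx hsy))
    rwa [hd', mul_inv_cancel_right] at h3

end key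

end Cfsg.Agent.H313.Alt
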