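import Mathlib
import Cfsg.Agent.H313.AltC

/-!
# Centralizers of involutions in alternating groups: the frame (helper313)
-/

set_option autoImplicit false
set_option linter.unusedSectionVars false

namespace Cfsg.Agent.H313.Alt

open Equiv Equiv.Perm Subgroup

/-- The facts on the centralizer `C` of an involution `z` of an alternating group with at least six fixed points:
`A` is the alternating group on the fixed points, `S` its centralizer. -/
structure Fr (C : Type*) [Group C] (z : C) (A S E : Subgroup C) : Prop where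
  ne : z ≠ 1
  sq : z * z = 1
  cen : ∀ x, x * z = z * x
  memS : z ∈ S
  An : A.Normal
  simple : IsSimpleGroup A
  na : ∃ a ∈ A, ∃ b ∈ A, a * b ≠ b * a
  cenA : ∀ x, x ∈ S ↔ ∀ a ∈ A, x * a = a * x
  umin : ∀ N : Subgroup C, N.Normal → N ≤ S → N ≠ ⊥ → z ∈ N
  abel : ∀ N : Subgroup C, N.Normal → N ≤ S → ∀ y ∈ N, y ≠ 1 → y ≠ z → (∀ n ∈ N, n * y = y * n) →
    ∀ n ∈ N, n * n = 1
  En : E.Normal
  ES : E ≤ S
  Esq : ∀ x ∈ E, x * x = 1
  self : ∀ x ∈ S, (∀ e ∈ E, x * e = e * x) → x ∈ E
  odd : ∃ c : C, c * c = 1 ∧ ∀ a ∈ A, c * a ∉ S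
  cm : ∃ a b : C, a * a = 1 ∧ b * b = 1 ∧ a * b * a⁻¹ * b⁻¹ ∈ S ∧ a * b * a⁻¹ * b⁻¹ ≠ 1
  rich : ∀ u ∈ A, u ≠ 1 → u * u = 1 → ∃ x ∈ A, x * u = u * x ∧ x * x ≠ 1

variable {Ω : Type*} [DecidableEq Ω] [Fintype Ω] {s : Perm Ω}

/-- the alternating group on the fixed points -/
def AA (s : Perm Ω) : Subgroup ↥(CC s) where
  carrier := {c | ∀ x, s x ≠ x → (c : Perm Ω) x = x}
  one_mem' := fun x _ => rfl
  mul_mem' := by
    intro a b ha hb x hx
    rw [Subgroup.coe_mul, Perm.mul_apply, hb x hx, ha x hx]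
  inv_mem' := by
    intro a ha x hx
    rw [Subgroup.coe_inv, Perm.inv_eq_iff_eq]
    exact (ha x hx).symm

/-- the elements trivial on the fixed points -/
def SS (s : Perm Ω) : Subgroup ↥(CC s) where
  carrier := {c | ∀ x, s x = x → (c : Perm Ω) x = x}
  one_mem' := fun x _ => rfl
  mul_mem' := by
    intro a b ha hb x hx
    rw [Subgroup.coe_mul, Perm.mul_apply, hb x hx, ha x hx]
  inv_mem' := by
    intro a ha x hx
    rw [Subgroup.coe_inv, Perm.inv_eq_iff_eq]
    exact (ha x hx).symm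

theorem app_inv (g : Perm Ω) (x : Ω) : g (g⁻¹ x) = x := by simp

theorem comm_of_mem (c : ↥(CC s)) : (c : Perm Ω) * s = s * c := (mem_CC.1 c.2).1

/-- the even part of the base group -/
def EE (hs : s * s = 1) : Subgroup ↥(CC s) where
  carrier := {c | ∀ x, (c : Perm Ω) x = x ∨ (c : Perm Ω) x = s x}
  one_mem' := fun x => Or.inl rfl
  mul_mem' := by
    intro a b ha hb x
    rw [Subgroup.coe_mul, Perm.mul_apply]
    rcases hb x with e | e
    · rw [e]; exact ha x
    · rw [e, app_comm (comm_of_mem a)]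
      rcases ha x with e1 | e1
      · right; rw [e1]
      · left; rw [e1, ss hs]
  inv_mem' := by
    intro a ha x
    rw [Subgroup.coe_inv, Perm.inv_eq_iff_eq, Perm.inv_eq_iff_eq, app_comm (comm_of_mem a)]
    rcases ha x with e | e
    · left; exact e.symm
    · right; rw [e, ss hs]

theorem mem_AA {c : ↥(CC s)} : c ∈ AA s ↔ ∀ x, s x ≠ x → (c : Perm Ω) x = x := Iff.rfl
theorem mem_SS {c : ↥(CC s)} : c ∈ SS s ↔ ∀ x, s x = x → (c : Perm Ω) x = x := Iff.rfl
theorem mem_EE {hs : s * s = 1} {c : ↥(CC s)} : c ∈ EE hs ↔ ∀ x, (c : Perm Ω) x = x ∨ (c : Perm Ω) x = s x := Iff.rfl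

theorem fix_iff (c : ↥(CC s)) {x : Ω} : s ((c : Perm Ω) x) = (c : Perm Ω) x ↔ s x = x := by
  rw [← app_comm (comm_of_mem c)]
  exact ⟨fun h => (c : Perm Ω).injective h, fun h => by rw [h]⟩

theorem inv_comm (c : ↥(CC s)) : ((c⁻¹ : ↥(CC s)) : Perm Ω) * s = s * ((c⁻¹ : ↥(CC s)) : Perm Ω) := comm_of_mem _

theorem AA_normal : (AA s).Normal := by
  constructor
  intro n hn g x hx
  have h1 : s (((g⁻¹ : ↥(CC s)) : Perm Ω) x) ≠ ((g⁻¹ : ↥(CC s)) : Perm Ω) x := fun e => hx ((fix_iff g⁻¹).1 e)
  have h2 := hn _ h1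
  rw [Subgroup.coe_mul, Subgroup.coe_mul, Perm.mul_apply, Perm.mul_apply, h2, Subgroup.coe_inv, app_inv]

theorem SS_normal : (SS s).Normal := by
  constructor
  intro n hn g x hx
  have h1 : s (((g⁻¹ : ↥(CC s)) : Perm Ω) x) = ((g⁻¹ : ↥(CC s)) : Perm Ω) x := (fix_iff g⁻¹).2 hx
  have h2 := hn _ h1
  rw [Subgroup.coe_mul, Subgroup.coe_mul, Perm.mul_apply, Perm.mul_apply, h2, Subgroup.coe_inv, app_inv]

theorem EE_normal (hs : s * s = 1) : (EE hs).Normal := by
  constructor
  intro n hn g x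
  rw [Subgroup.coe_mul, Subgroup.coe_mul, Perm.mul_apply, Perm.mul_apply]
  rcases hn (((g⁻¹ : ↥(CC s)) : Perm Ω) x) with e | e
  · left; rw [e, Subgroup.coe_inv, app_inv]
  · right; rw [e, app_comm (comm_of_mem g), Subgroup.coe_inv, app_inv]

theorem EE_sq (hs : s * s = 1) {c : ↥(CC s)} (hc : c ∈ EE hs) : c * c = 1 := by
  apply Subtype.ext
  ext x
  rw [Subgroup.coe_mul, Perm.mul_apply]
  rcases hc x with e | e
  · rw [e, e]; rfl
  · rw [e, app_comm (comm_of_mem c), e, ss hs]; rfl

theorem EE_le_SS (hs : s * s = 1) : EE hs ≤ SS s := by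
  intro c hc x hx
  rcases hc x with e | e
  · exact e
  · rw [e, hx]

/-- elements of `AA` and `SS` commute -/
theorem comm_AS {a b : ↥(CC s)} (ha : a ∈ AA s) (hb : b ∈ SS s) : b * a = a * b := by
  apply Subtype.ext
  ext x
  rw [Subgroup.coe_mul, Subgroup.coe_mul, Perm.mul_apply, Perm.mul_apply]
  by_cases hx : s x = x
  · rw [hb x hx, hb _ ((fix_iff a).2 hx)]
  · rw [ha x hx, ha _ (fun e => hx ((fix_iff b).1 e))]

/-- centralizer of `AA` -/
theorem mem_SS_of_comm (hF : 4 ≤ Fintype.card {x // s x = x}) {c : ↥(CC s)} (hc : ∀ a ∈ AA s, c * a = a * c) :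
    c ∈ SS s := by
  intro f hf
  by_contra hcf
  have hcf' : s ((c : Perm Ω) f) = (c : Perm Ω) f := (fix_iff c).2 hf
  -- two more fixed points
  obtain ⟨g, hg, g1, g2, h, hh, h1, h2, h3⟩ : ∃ g, s g = g ∧ g ≠ f ∧ g ≠ (c : Perm Ω) f ∧ ∃ h, s h = h ∧ h ≠ f ∧
      h ≠ (c : Perm Ω) f ∧ h ≠ g := by
    have e1 : ∃ g : {x // s x = x}, g ∉ ({⟨f, hf⟩, ⟨_, hcf'⟩} : Finset {x // s x = x}) := by
      by_contra hcc
      push Not at hcc
      have := Finset.card_le_two (a := (⟨f, hf⟩ : {x // s x = x})) (b := ⟨_, hcf'⟩)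
      have h3 : Fintype.card {x // s x = x} ≤ 2 := by
        rw [← Finset.card_univ]
        exact (Finset.card_le_card fun g _ => hcc g).trans this
      omega
    obtain ⟨g, hg⟩ := e1
    have e2 : ∃ h : {x // s x = x}, h ∉ ({⟨f, hf⟩, ⟨_, hcf'⟩, g} : Finset {x // s x = x}) := by
      by_contra hcc
      push Not at hcc
      have := Finset.card_le_three (a := (⟨f, hf⟩ : {x // s x = x})) (b := ⟨_, hcf'⟩) (c := g)
      have h3 : Fintype.card {x // s x = x} ≤ 3 := by
        rw [← Finset.card_univ]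
        exact (Finset.card_le_card fun g _ => hcc g).trans this
      omega
    obtain ⟨h, hh⟩ := e2
    simp only [Finset.mem_insert, Finset.mem_singleton, not_or] at hg hh
    exact ⟨g, g.2, fun e => hg.1 (Subtype.ext e), fun e => hg.2 (Subtype.ext e), h, h.2,
      fun e => hh.1 (Subtype.ext e), fun e => hh.2.1 (Subtype.ext e), fun e => hh.2.2 (Subtype.ext e)⟩
  have hmem : swap f g * swap g h ∈ CC s := by
    refine mem_CC.2 ⟨comm_mul (sw_comm hf hg) (sw_comm hg hh), ?_⟩
    rw [Perm.sign_mul, sign_swap g1.symm, sign_swap h3.symm]; rfl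
  have hA : (⟨_, hmem⟩ : ↥(CC s)) ∈ AA s := by
    intro x hx
    have x1 : x ≠ f := fun e => hx (by rw [e]; exact hf)
    have x2 : x ≠ g := fun e => hx (by rw [e]; exact hg)
    have x3 : x ≠ h := fun e => hx (by rw [e]; exact hh)
    change (swap f g * swap g h) x = x
    rw [Perm.mul_apply, swap_apply_of_ne_of_ne x2 x3, swap_apply_of_ne_of_ne x1 x2]
  have h4 := congrArg (fun p : ↥(CC s) => (p : Perm Ω) f) (hc _ hA)
  change (c : Perm Ω) ((swap f g * swap g h) f) = (swap f g * swap g h) ((c : Perm Ω) f) at h4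
  rw [Perm.mul_apply, Perm.mul_apply, swap_apply_of_ne_of_ne g1.symm h1.symm, swap_apply_left,
    swap_apply_of_ne_of_ne g2.symm h2.symm, swap_apply_of_ne_of_ne hcf g2.symm] at h4
  exact g1 ((c : Perm Ω).injective h4)

/-- an element commuting with two products of pairs having one pair in common preserves the common pair -/
theorem base_of_comm (hs : s * s = 1) {c : Perm Ω} (hc : c * s = s * c) {x y w : Ω} (hxy : Dis s x y) (hxw : Dis s x w)
    (hyw : Dis s y w) (h1 : c * (tr s x * tr s y) = tr s x * tr s y * c)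
    (h2 : c * (tr s x * tr s w) = tr s x * tr s w * c) : c x = x ∨ c x = s x := by
  have key : ∀ {y : Ω}, Dis s x y → c * (tr s x * tr s y) = tr s x * tr s y * c →
      c x = x ∨ c x = s x ∨ c x = y ∨ c x = s y := by
    intro y hxy h1
    by_contra hcc
    push Not at hcc
    obtain ⟨a1, a2, a3, a4⟩ := hcc
    have h3 := congrArg (fun p : Perm Ω => p x) h1
    simp only [Perm.mul_apply] at h3
    rw [tr_of_ne hxy.ne hxy.ns, tr_left, tr_of_ne a3 a4, tr_of_ne a1 a2] at h3
    exact hxy.x1 (c.injective h3)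
  rcases key hxy h1 with e | e | e | e
  · exact Or.inl e
  · exact Or.inr e
  · rcases key hxw h2 with e' | e' | e' | e'
    · exact Or.inl e'
    · exact Or.inr e'
    · exact absurd (e.symm.trans e') hyw.ne
    · exact absurd (e.symm.trans e') hyw.ns
  · rcases key hxw h2 with e' | e' | e' | e'
    · exact Or.inl e'
    · exact Or.inr e'
    · exact absurd (e.symm.trans e') (hyw.ns' hs)
    · exact absurd (e.symm.trans e') (hyw.ss hs)

/-- a point moved by `s`, outside two given pairs -/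
theorem exists_third (hD : 5 ≤ s.support.card) (x y : Ω) :
    ∃ w, s w ≠ w ∧ w ≠ x ∧ w ≠ s x ∧ w ≠ y ∧ w ≠ s y := by
  by_contra hcc
  push Not at hcc
  have h1 : s.support ⊆ ({x, s x, y, s y} : Finset Ω) := by
    intro w hw
    rw [mem_support] at hw
    by_cases a1 : w = x
    · simp [a1]
    by_cases a2 : w = s x
    · simp [a2]
    by_cases a3 : w = y
    · simp [a3]
    have := hcc w hw a1 a2 a3
    simp [this]
  have h2 := (Finset.card_le_card h1).trans Finset.card_le_four
  omega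


section fields

/-- the image of a normal subgroup -/
theorem map_conj {N : Subgroup ↥(CC s)} (hN : N.Normal) :
    ∀ c ∈ CC s, ∀ n ∈ N.map (CC s).subtype, c * n * c⁻¹ ∈ N.map (CC s).subtype := by
  rintro c hc _ ⟨n, hn, rfl⟩
  exact ⟨⟨c, hc⟩ * n * ⟨c, hc⟩⁻¹, hN.conj_mem n hn _, rfl⟩

theorem mem_map_iff {N : Subgroup ↥(CC s)} {c : Perm Ω} (hc : c ∈ CC s) :
    c ∈ N.map (CC s).subtype ↔ (⟨c, hc⟩ : ↥(CC s)) ∈ N := by
  constructor
  · rintro ⟨n, hn, rfl⟩; exact hn
  · intro h; exact ⟨_, h, rfl⟩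

/-- all the products of two pairs are in a normal subgroup which is not too small -/
theorem trtr_of_normal (hs : s * s = 1) {N : Subgroup ↥(CC s)} (hN : N.Normal) (hNS : N ≤ SS s) {f g : Ω}
    (hf : s f = f) (hg : s g = g) (hfg : f ≠ g) {y : ↥(CC s)} (hy : y ∈ N) (h1 : y ≠ 1) (h2 : (y : Perm Ω) ≠ s) :
    ∀ x y, s x ≠ x → s y ≠ y → tr s x * tr s y ∈ N.map (CC s).subtype := by
  obtain ⟨a, b, hab, h⟩ := key hs (map_conj hN) (by rintro _ ⟨n, -, rfl⟩; exact comm_of_mem n)
    (by rintro _ ⟨n, hn, rfl⟩; exact hNS hn) hf hg hfg (y := y) ⟨y, hy, rfl⟩ (fun e => h1 (Subtype.ext e)) h2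
  exact spread hs (map_conj hN) hab h

theorem umin (hs : s * s = 1) (hsC : s ∈ CC s) {f g : Ω} (hf : s f = f) (hg : s g = g) (hfg : f ≠ g)
    (N : Subgroup ↥(CC s)) (hN : N.Normal) (hNS : N ≤ SS s) (hN1 : N ≠ ⊥) : (⟨s, hsC⟩ : ↥(CC s)) ∈ N := by
  obtain ⟨⟨y, hy⟩, hy1'⟩ := Subgroup.ne_bot_iff_exists_ne_one.1 hN1
  have hy1 : y ≠ 1 := fun e => hy1' (Subtype.ext e)
  by_cases h2 : ((y : ↥(CC s)) : Perm Ω) = s
  · have : (⟨s, hsC⟩ : ↥(CC s)) = y := Subtype.ext h2.symm
    rw [this]; exact hy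
  · have h3 := trtr_of_normal hs hN hNS hf hg hfg hy hy1 h2
    exact (mem_map_iff hsC).1 (base_mem hs h3 _ s rfl rfl (fun x => Or.inr rfl) (mem_CC.1 hsC).2)

/-- more than two pairs: elements commuting with the base group -/
theorem base_of_all (hs : s * s = 1) (hD : 5 ≤ s.support.card) {c : ↥(CC s)} (hcS : c ∈ SS s)
    (h : ∀ x y, s x ≠ x → s y ≠ y → (c : Perm Ω) * (tr s x * tr s y) = tr s x * tr s y * c) : c ∈ EE hs := by
  intro x
  by_cases hx : s x = x
  · exact Or.inl (hcS x hx)
  obtain ⟨y, hy, y1, y2, -, -⟩ := exists_third hD x x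
  have hxy : Dis s x y := ⟨hx, hy, y1.symm, fun e => y2 (by rw [e, ss hs])⟩
  obtain ⟨w, hw, w1, w2, w3, w4⟩ := exists_third hD x y
  have hxw : Dis s x w := ⟨hx, hw, w1.symm, fun e => w2 (by rw [e, ss hs])⟩
  have hyw : Dis s y w := ⟨hy, hw, w3.symm, fun e => w4 (by rw [e, ss hs])⟩
  exact base_of_comm hs (comm_of_mem c) hxy hxw hyw (h x y hx hy) (h x w hx hw)

theorem abel (hs : s * s = 1) (hD : 5 ≤ s.support.card) {f g : Ω} (hf : s f = f) (hg : s g = g) (hfg : f ≠ g)
    (N : Subgroup ↥(CC s)) (hN : N.Normal) (hNS : N ≤ SS s) (y : ↥(CC s)) (hy : y ∈ N) (h1 : y ≠ 1)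
    (h2 : (y : Perm Ω) ≠ s) (hc : ∀ n ∈ N, n * y = y * n) : ∀ n ∈ N, n * n = 1 := by
  set Y := N ⊓ Subgroup.centralizer (N : Set ↥(CC s)) with hY
  have hYn : Y.Normal := inferInstance
  have hyY : y ∈ Y := ⟨hy, Subgroup.mem_centralizer_iff.2 fun n hn => hc n hn⟩
  have h3 := trtr_of_normal hs hYn (inf_le_left.trans hNS) hf hg hfg hyY h1 h2
  intro n hn
  refine EE_sq hs (base_of_all hs hD (hNS hn) fun x y hx hy => ?_)
  obtain ⟨w, hw, e⟩ := h3 x y hx hy
  have h4 := Subgroup.mem_centralizer_iff.1 hw.2 n hn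
  have h5 := congrArg Subtype.val h4
  rw [← e]
  exact h5

/-- two pairs: all elements trivial on the fixed points are involutions -/
theorem sq_two (hs : s * s = 1) (hD : s.support.card = 4) {n : ↥(CC s)} (hn : n ∈ SS s) : n * n = 1 := by
  obtain ⟨x, hx⟩ : ∃ x, s x ≠ x := by
    by_contra hcc
    push Not at hcc
    have : s = 1 := Equiv.ext hcc
    rw [this] at hD
    simp at hD
  have hx2 : s x ∈ s.support := by rw [mem_support]; exact fun e => hx (s.injective e)
  obtain ⟨y0, hy0⟩ : ∃ y, s y ≠ y ∧ y ≠ x ∧ y ≠ s x := by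
    by_contra hcc
    push Not at hcc
    have h1 : s.support ⊆ ({x, s x} : Finset Ω) := by
      intro w hw
      rw [mem_support] at hw
      by_cases a1 : w = x
      · simp [a1]
      · simp [hcc w hw a1]
    have h2 := (Finset.card_le_card h1).trans Finset.card_le_two
    omega
  have hall : ∀ w, s w ≠ w → w = x ∨ w = s x ∨ w = y0 ∨ w = s y0 := by
    intro w hw
    by_contra hcc
    push Not at hcc
    obtain ⟨a1, a2, a3, a4⟩ := hcc
    have hd : Dis s x y0 := ⟨hx, hy0.1, hy0.2.1.symm, fun e => hy0.2.2 (by rw [e, ss hs])⟩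
    have h1 : ({w, x, s x, y0, s y0} : Finset Ω) ⊆ s.support := by
      intro v hv
      rw [mem_support]
      simp only [Finset.mem_insert, Finset.mem_singleton] at hv
      rcases hv with rfl | rfl | rfl | rfl | rfl
      · exact hw
      · exact hx
      · exact fun e => hx (s.injective e)
      · exact hy0.1
      · exact fun e => hy0.1 (s.injective e)
    have h2 : ({w, x, s x, y0, s y0} : Finset Ω).card = 5 := by
      rw [Finset.card_insert_of_notMem, Finset.card_insert_of_notMem, Finset.card_insert_of_notMem,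
        Finset.card_insert_of_notMem, Finset.card_singleton]
      · simpa using hy0.1.symm
      · simp only [Finset.mem_insert, Finset.mem_singleton, not_or]
        exact ⟨hd.ns' hs, hd.ss hs⟩
      · simp only [Finset.mem_insert, Finset.mem_singleton, not_or]
        exact ⟨hx.symm, hd.ne, hd.ns⟩
      · simp only [Finset.mem_insert, Finset.mem_singleton, not_or]
        exact ⟨a1, a2, a3, a4⟩
    have := Finset.card_le_card h1
    omega
  have hnc := comm_of_mem n
  by_cases hnx : (n : Perm Ω) x = x ∨ (n : Perm Ω) x = s x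
  · refine EE_sq hs (fun w => ?_)
    have hnsx : (n : Perm Ω) (s x) = x ∨ (n : Perm Ω) (s x) = s x := by
      rw [app_comm hnc]
      rcases hnx with e | e
      · right; rw [e]
      · left; rw [e, ss hs]
    by_cases hw : s w = w
    · exact Or.inl (hn w hw)
    have key : ∀ w, s w ≠ w → w ≠ x → w ≠ s x → (n : Perm Ω) w = y0 ∨ (n : Perm Ω) w = s y0 := by
      intro w hw a1 a2
      rcases hall _ (fun e => hw ((fix_iff n).1 e)) with e | e | e | e
      · exfalso
        rcases hnx with e' | e'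
        · exact a1 ((n : Perm Ω).injective (e.trans e'.symm))
        · rcases hnsx with e2 | e2
          · exact a2 ((n : Perm Ω).injective (e.trans e2.symm))
          · exact hx (((n : Perm Ω).injective (e'.trans e2.symm)).symm)
      · exfalso
        rcases hnx with e' | e'
        · rcases hnsx with e2 | e2
          · exact hx ((n : Perm Ω).injective (e2.trans e'.symm))
          · exact a2 ((n : Perm Ω).injective (e.trans e2.symm))
        · exact a1 ((n : Perm Ω).injective (e.trans e'.symm))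
      · exact Or.inl e
      · exact Or.inr e
    rcases hall w hw with rfl | rfl | rfl | rfl
    · exact hnx
    · rcases hnsx with e | e
      · right; rw [e, ss hs]
      · left; exact e
    · exact key _ hw hy0.2.1 hy0.2.2
    · rcases key (s y0) hw (fun e => hy0.2.2 (by rw [← e, ss hs])) (fun e => hy0.2.1 (s.injective e)) with e | e
      · right; rw [e, ss hs]
      · left; exact e
  · push Not at hnx
    set y := (n : Perm Ω) x with hydef
    have hy : y = y0 ∨ y = s y0 := by
      rcases hall _ (fun e => hx ((fix_iff n).1 e)) with e | e | e | e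
      · exact absurd e hnx.1
      · exact absurd e hnx.2
      · exact Or.inl e
      · exact Or.inr e
    have hall' : ∀ w, s w ≠ w → w = x ∨ w = s x ∨ w = y ∨ w = s y := by
      intro w hw
      rcases hall w hw with e | e | e | e
      · exact Or.inl e
      · exact Or.inr (Or.inl e)
      · rcases hy with e' | e'
        · exact Or.inr (Or.inr (Or.inl (by rw [e, e'])))
        · exact Or.inr (Or.inr (Or.inr (by rw [e, e', ss hs])))
      · rcases hy with e' | e'
        · exact Or.inr (Or.inr (Or.inr (by rw [e, e'])))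
        · exact Or.inr (Or.inr (Or.inl (by rw [e, e'])))
    have hsy : s y ≠ y := fun e => hx ((fix_iff n).1 e)
    have hd : Dis s x y := ⟨hx, hsy, hnx.1.symm, fun e => hnx.2 (by rw [e, ss hs])⟩
    have hnsx : (n : Perm Ω) (s x) = s y := by rw [app_comm hnc]
    have hny : (n : Perm Ω) y = x := by
      rcases hall' _ (fun e => hsy ((fix_iff n).1 e)) with e | e | e | e
      · exact e
      · exfalso
        have h1 : (n : Perm Ω) = bs s x y * tr s y := by
          ext w
          rw [Perm.mul_apply]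
          by_cases hw : s w = w
          · have w1 : w ≠ y := fun h => hsy (by rw [← h]; exact hw)
            have w2 : w ≠ s y := fun h => hsy (s.injective (by rw [← h]; exact hw))
            have w3 : w ≠ x := fun h => hx (by rw [← h]; exact hw)
            have w4 : w ≠ s x := fun h => hx (s.injective (by rw [← h]; exact hw))
            rw [hn w hw, tr_of_ne w1 w2, bs_of_ne w3 w1 w4 w2]
          · rcases hall' w hw with h | h | h | h
            · rw [h, tr_of_ne hd.ne hd.ns, bs_left hs hd]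
            · rw [h, tr_of_ne (hd.ns' hs) (hd.ss hs), app_comm (bs_comm hs hd), bs_left hs hd, hnsx]
            · rw [h, tr_left, app_comm (bs_comm hs hd), bs_right hs hd, e]
            · rw [h, tr_right, bs_right hs hd, app_comm hnc, e, ss hs]
        have h2 := (mem_CC.1 n.2).2
        rw [h1, Perm.sign_mul, sign_bs hd.ne, sign_tr hsy] at h2
        exact absurd h2 (by decide)
      · exact absurd ((n : Perm Ω).injective (e.trans hydef)) hd.ne.symm
      · exact absurd ((n : Perm Ω).injective (e.trans hnsx.symm)) (hd.ns' hs).symm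
    have hnsy : (n : Perm Ω) (s y) = s x := by rw [app_comm hnc, hny]
    apply Subtype.ext
    ext w
    rw [Subgroup.coe_mul, Perm.mul_apply]
    by_cases hw : s w = w
    · rw [hn w hw, hn w hw]; rfl
    · rcases hall' w hw with h | h | h | h
      · rw [h, ← hydef, hny]; rfl
      · rw [h, hnsx, hnsy]; rfl
      · rw [h, hny, ← hydef]; rfl
      · rw [h, hnsy, hnsx]; rfl

theorem sq_of_comm {G : Type*} [Group G] {a b : G} (h : a * b = b * a) (ha : a * a = 1) (hb : b * b = 1) :
    a * b * (a * b) = 1 := by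
  nth_rewrite 1 [h]
  rw [mul_assoc, ← mul_assoc a, ha, one_mul, hb]

theorem swap_or (a b x : Ω) : swap a b x = b ∨ swap a b x = a ∨ swap a b x = x := by
  by_cases h : x = a
  · left; rw [h, swap_apply_left]
  by_cases h2 : x = b
  · right; left; rw [h2, swap_apply_right]
  · right; right; exact swap_apply_of_ne_of_ne h h2

theorem tr_fix {x w : Ω} (hx : s x ≠ x) (hw : s w = w) : tr s x w = w :=
  tr_of_ne (fun e => hx (by rw [← e]; exact hw)) (fun e => hx (s.injective (by rw [← e]; exact hw)))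

theorem disj_comm {x f g : Ω} (hx : s x ≠ x) (hf : s f = f) (hg : s g = g) : tr s x * swap f g = swap f g * tr s x := by
  have h1 : ∀ w, s w = w → w ≠ x ∧ w ≠ s x := fun w hw =>
    ⟨fun e => hx (by rw [← e]; exact hw), fun e => hx (s.injective (by rw [← e]; exact hw))⟩
  exact swap_swap_comm (h1 f hf).1 (h1 f hf).2 (h1 g hg).1 (h1 g hg).2

theorem odd (hs : s * s = 1) {x f g : Ω} (hx : s x ≠ x) (hf : s f = f) (hg : s g = g) (hfg : f ≠ g) :
    ∃ c : ↥(CC s), c * c = 1 ∧ ∀ a ∈ AA s, c * a ∉ SS s := by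
  refine ⟨⟨_, trsw_mem hs hx hf hg hfg⟩, ?_, ?_⟩
  · apply Subtype.ext
    change tr s x * swap f g * (tr s x * swap f g) = 1
    exact sq_of_comm (disj_comm hx hf hg) (tr_tr x) (swap_mul_self _ _)
  · intro a ha hc
    have key : swap f g * (a : Perm Ω) = 1 := by
      ext w
      rw [Perm.mul_apply]
      change _ = w
      by_cases hw : s w = w
      · have h1 := hc w hw
        change (tr s x * swap f g) ((a : Perm Ω) w) = w at h1
        rw [Perm.mul_apply] at h1
        have h2 : s ((a : Perm Ω) w) = (a : Perm Ω) w := (fix_iff a).2 hw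
        have h3 : s (swap f g ((a : Perm Ω) w)) = swap f g ((a : Perm Ω) w) := by
          rcases swap_or f g ((a : Perm Ω) w) with e | e | e
          · rw [e]; exact hg
          · rw [e]; exact hf
          · rw [e]; exact h2
        rw [tr_of_ne (fun e => hx (by rw [← e]; exact h3)) (fun e => hx (s.injective (by rw [← e]; exact h3)))] at h1
        exact h1
      · rw [ha w hw]
        exact swap_apply_of_ne_of_ne (fun e => hw (by rw [e]; exact hf)) (fun e => hw (by rw [e]; exact hg))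
    have h2 := congrArg sign key
    rw [Perm.sign_mul, sign_swap hfg, (mem_CC.1 a.2).2, Perm.sign_one] at h2
    exact absurd h2 (by decide)

theorem cm (hs : s * s = 1) {x y f g : Ω} (hd : Dis s x y) (hf : s f = f) (hg : s g = g) (hfg : f ≠ g) :
    ∃ a b : ↥(CC s), a * a = 1 ∧ b * b = 1 ∧ a * b * a⁻¹ * b⁻¹ ∈ SS s ∧ a * b * a⁻¹ * b⁻¹ ≠ 1 := by
  have e : bs s x y * (tr s x * swap f g) * (bs s x y)⁻¹ * (tr s x * swap f g)⁻¹ = tr s y * tr s x := by
    have h1 := conj_tr (bs_comm hs hd) x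
    rw [bs_left hs hd] at h1
    have h2 := swap_apply_apply (bs s x y) f g
    have h3 : ∀ w, s w = w → bs s x y w = w := by
      intro w hw
      refine bs_of_ne (fun e => hd.x1 (by rw [← e]; exact hw)) (fun e => hd.y1 (by rw [← e]; exact hw))
        (fun e => hd.x1 (s.injective (by rw [← e]; exact hw))) (fun e => hd.y1 (s.injective (by rw [← e]; exact hw)))
    rw [h3 f hf, h3 g hg] at h2
    have h4 : bs s x y * (tr s x * swap f g) * (bs s x y)⁻¹ * (tr s x * swap f g)⁻¹ =
      (bs s x y * tr s x * (bs s x y)⁻¹) * (bs s x y * swap f g * (bs s x y)⁻¹) * (swap f g)⁻¹ * (tr s x)⁻¹ := by group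
    rw [h4, h1, ← h2, tr_inv]
    group
  refine ⟨⟨_, bs_mem hs hd⟩, ⟨_, trsw_mem hs hd.x1 hf hg hfg⟩, Subtype.ext (bs_bs hs hd), Subtype.ext ?_, ?_, ?_⟩
  · exact sq_of_comm (disj_comm hd.x1 hf hg) (tr_tr x) (swap_mul_self _ _)
  · intro w hw
    change (bs s x y * (tr s x * swap f g) * (bs s x y)⁻¹ * (tr s x * swap f g)⁻¹) w = w
    rw [e, Perm.mul_apply, tr_fix hd.x1 hw, tr_fix hd.y1 hw]
  · intro h1
    have h2 : bs s x y * (tr s x * swap f g) * (bs s x y)⁻¹ * (tr s x * swap f g)⁻¹ = 1 := congrArg Subtype.val h1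
    rw [e] at h2
    have h3 := congrArg (fun p : Perm Ω => p x) h2
    simp only [Perm.mul_apply, Perm.one_apply] at h3
    rw [tr_left, tr_of_ne (hd.ns' hs) (hd.ss hs)] at h3
    exact hd.x1 h3

/-- four fixed points -/
theorem exists_fix (n : ℕ) (hF : n < Fintype.card {x // s x = x}) (T : Finset Ω) (hT : T.card ≤ n) :
    ∃ g, s g = g ∧ g ∉ T := by
  by_contra hcc
  push Not at hcc
  have h1 : (Finset.univ.filter fun x => s x = x) ⊆ T := by
    intro w hw
    rw [Finset.mem_filter] at hw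
    exact hcc w hw.2
  have h2 := Finset.card_le_card h1
  rw [← Fintype.card_subtype] at h2
  omega

theorem na (hF : 4 ≤ Fintype.card {x // s x = x}) : ∃ a ∈ AA s, ∃ b ∈ AA s, a * b ≠ b * a := by
  obtain ⟨f, hf, -⟩ := exists_fix 0 (by omega) (s := s) ∅ (by simp)
  obtain ⟨g, hg, g1⟩ := exists_fix 1 (by omega) (s := s) {f} (by simp)
  obtain ⟨h, hh, h1⟩ := exists_fix 2 (by omega) (s := s) {f, g} Finset.card_le_two
  rw [Finset.mem_singleton] at g1
  simp only [Finset.mem_insert, Finset.mem_singleton, not_or] at h1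
  have hmem : swap f g * swap g h ∈ CC s := by
    refine mem_CC.2 ⟨comm_mul (sw_comm hf hg) (sw_comm hg hh), ?_⟩
    rw [Perm.sign_mul, sign_swap (fun e => g1 e.symm), sign_swap (fun e => h1.2 e.symm)]; rfl
  have hA : (⟨_, hmem⟩ : ↥(CC s)) ∈ AA s := by
    intro x hx
    have x1 : x ≠ f := fun e => hx (by rw [e]; exact hf)
    have x2 : x ≠ g := fun e => hx (by rw [e]; exact hg)
    have x3 : x ≠ h := fun e => hx (by rw [e]; exact hh)
    change (swap f g * swap g h) x = x
    rw [Perm.mul_apply, swap_apply_of_ne_of_ne x2 x3, swap_apply_of_ne_of_ne x1 x2]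
  refine ⟨_, hA, ?_⟩
  by_contra hcc
  push Not at hcc
  have h2 := mem_SS_of_comm hF hcc f hf
  change (swap f g * swap g h) f = f at h2
  rw [Perm.mul_apply, swap_apply_of_ne_of_ne (fun e => g1 e.symm) (fun e => h1.1 e.symm), swap_apply_left] at h2
  exact g1 h2

theorem rich (hF : 6 ≤ Fintype.card {x // s x = x}) (u : ↥(CC s)) (hu : u ∈ AA s) (hu1 : u ≠ 1) (hu2 : u * u = 1) :
    ∃ x ∈ AA s, x * u = u * x ∧ x * x ≠ 1 := by
  have huu : (u : Perm Ω) * u = 1 := congrArg Subtype.val hu2
  have huF : ∀ w, (u : Perm Ω) w ≠ w → s w = w := by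
    intro w hw
    by_contra hc
    exact hw (hu w hc)
  obtain ⟨a, ha⟩ : ∃ a, (u : Perm Ω) a ≠ a := by
    by_contra hcc
    push Not at hcc
    exact hu1 (Subtype.ext (Equiv.ext hcc))
  obtain ⟨c, hc, c1, c2⟩ : ∃ c, (u : Perm Ω) c ≠ c ∧ c ≠ a ∧ c ≠ (u : Perm Ω) a := by
    by_contra hcc
    push Not at hcc
    have : (u : Perm Ω) = tr (u : Perm Ω) a := by
      ext w
      by_cases e1 : w = a
      · rw [e1, tr_left]
      by_cases e2 : w = (u : Perm Ω) a
      · rw [e2, tr_right, ss huu]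
      rw [tr_of_ne e1 e2]
      by_contra h3
      exact e2 (hcc w h3 e1)
    have h2 := (mem_CC.1 u.2).2
    rw [this, sign_tr ha] at h2
    exact absurd h2 (by decide)
  have hd : Dis (u : Perm Ω) a c := ⟨ha, hc, c1.symm, fun e => c2 (by rw [e, ss huu])⟩
  set b := (u : Perm Ω) a with hb
  set d := (u : Perm Ω) c with hdd
  have sa : s a = a := huF a ha
  have sb : s b = b := huF b (fun e => ha ((u : Perm Ω).injective (by rw [← hb]; exact e)))
  have sc : s c = c := huF c hc
  have sd : s d = d := huF d (fun e => hc ((u : Perm Ω).injective (by rw [← hdd]; exact e)))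
  -- the second pair
  obtain ⟨e, e', he, he', hee, h1, h2, h3, h4, h1', h2', h3', h4', hcomm⟩ : ∃ e e', s e = e ∧ s e' = e' ∧ e ≠ e' ∧
      e ≠ a ∧ e ≠ b ∧ e ≠ c ∧ e ≠ d ∧ e' ≠ a ∧ e' ≠ b ∧ e' ≠ c ∧ e' ≠ d ∧
      swap e e' * (u : Perm Ω) = u * swap e e' := by
    by_cases hex : ∃ e, (u : Perm Ω) e ≠ e ∧ e ≠ a ∧ e ≠ b ∧ e ≠ c ∧ e ≠ d
    · obtain ⟨e, he, h1, h2, h3, h4⟩ := hex
      refine ⟨e, (u : Perm Ω) e, huF e he, ?_, he.symm, h1, h2, h3, h4, ?_, ?_, ?_, ?_, tr_comm huu e⟩
      · exact (fix_iff u).2 (huF e he)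
      · intro h; apply h2; rw [hb, ← h, ss huu]
      · intro h; exact h1 ((u : Perm Ω).injective h)
      · intro h; apply h4; rw [hdd, ← h, ss huu]
      · intro h; exact h3 ((u : Perm Ω).injective h)
    · push Not at hex
      obtain ⟨e, he, h1⟩ := exists_fix 4 (by omega) (s := s) {a, b, c, d} Finset.card_le_four
      obtain ⟨e', he', h1'⟩ := exists_fix 5 (by omega) (s := s) {e, a, b, c, d} Finset.card_le_five
      simp only [Finset.mem_insert, Finset.mem_singleton, not_or] at h1 h1'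
      have ue : (u : Perm Ω) e = e := by
        by_contra h
        exact h1.2.2.2 (hex e h h1.1 h1.2.1 h1.2.2.1)
      have ue' : (u : Perm Ω) e' = e' := by
        by_contra h
        exact h1'.2.2.2.2 (hex e' h h1'.2.1 h1'.2.2.1 h1'.2.2.2.1)
      exact ⟨e, e', he, he', fun h => h1'.1 h.symm, h1.1, h1.2.1, h1.2.2.1, h1.2.2.2, h1'.2.1, h1'.2.2.1, h1'.2.2.2.1,
        h1'.2.2.2.2, sw_comm ue ue'⟩
  have hmem : bs (u : Perm Ω) a c * tr (u : Perm Ω) c * swap e e' ∈ CC s := by
    refine mem_CC.2 ⟨?_, ?_⟩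
    · refine comm_mul (comm_mul (comm_mul (sw_comm sa sc) (sw_comm sb sd)) (sw_comm sc sd)) (sw_comm he he')
    · rw [Perm.sign_mul, Perm.sign_mul, sign_bs hd.ne, sign_tr hc, sign_swap hee]; rfl
  refine ⟨⟨_, hmem⟩, ?_, ?_, ?_⟩
  · intro x hx
    have hne : ∀ w, s w = w → x ≠ w := fun w hw h => hx (by rw [h]; exact hw)
    change (bs (u : Perm Ω) a c * tr (u : Perm Ω) c * swap e e') x = x
    rw [Perm.mul_apply, Perm.mul_apply, swap_apply_of_ne_of_ne (hne e he) (hne e' he'),
      tr_of_ne (hne c sc) (hne d sd), bs_of_ne (hne a sa) (hne c sc) (hne b sb) (hne d sd)]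
  · apply Subtype.ext
    change bs (u : Perm Ω) a c * tr (u : Perm Ω) c * swap e e' * u = u * (bs (u : Perm Ω) a c * tr (u : Perm Ω) c * swap e e')
    exact comm_mul (comm_mul (bs_comm huu hd) (tr_comm huu c)) hcomm
  · intro h
    have h5 : (bs (u : Perm Ω) a c * tr (u : Perm Ω) c * swap e e') * (bs (u : Perm Ω) a c * tr (u : Perm Ω) c * swap e e') = 1 :=
      congrArg Subtype.val h
    have h6 := congrArg (fun p : Perm Ω => p a) h5
    simp only [Perm.mul_apply, Perm.one_apply] at h6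
    rw [swap_apply_of_ne_of_ne h1.symm h1'.symm, tr_of_ne hd.ne hd.ns, bs_left huu hd,
      swap_apply_of_ne_of_ne h3.symm h3'.symm, tr_left, ← hdd] at h6
    rw [hdd, app_comm (bs_comm huu hd), bs_right huu hd] at h6
    exact ha h6

/-- the alternating group of the fixed points -/
noncomputable def altEquiv (s : Perm Ω) : ↥(alternatingGroup {x // s x = x}) ≃* ↥(AA s) := by
  have hsub : ∀ a : ↥(alternatingGroup {x // s x = x}), ofSubtype (a : Perm {x // s x = x}) ∈ CC s := by
    intro a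
    refine mem_CC.2 ⟨comm_of_app fun x => ?_, ?_⟩
    · by_cases hx : s x = x
      · have h1 := ofSubtype_apply_of_mem (p := fun x => s x = x) (a : Perm {x // s x = x}) hx
        rw [hx, h1]
        exact (((a : Perm {x // s x = x}) ⟨x, hx⟩).2).symm
      · have h1 := ofSubtype_apply_of_not_mem (p := fun x => s x = x) (a : Perm {x // s x = x}) hx
        have h2 := ofSubtype_apply_of_not_mem (p := fun x => s x = x) (a := s x) (a : Perm {x // s x = x})
          (fun e => hx (s.injective e))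
        rw [h1, h2]
    · rw [sign_ofSubtype]; exact mem_alternatingGroup.1 a.2
  let φ : ↥(alternatingGroup {x // s x = x}) →* ↥(AA s) :=
    { toFun := fun a => ⟨⟨ofSubtype (a : Perm {x // s x = x}), hsub a⟩, fun x hx => ofSubtype_apply_of_not_mem _ hx⟩
      map_one' := by
        apply Subtype.ext; apply Subtype.ext
        exact map_one (ofSubtype (p := fun x => s x = x))
      map_mul' := fun a b => by
        apply Subtype.ext; apply Subtype.ext
        exact map_mul (ofSubtype (p := fun x => s x = x)) _ _ }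
  refine MulEquiv.ofBijective φ ⟨?_, ?_⟩
  · intro a b hab
    have h1 : ofSubtype (a : Perm {x // s x = x}) = ofSubtype (b : Perm {x // s x = x}) :=
      congrArg (fun c : ↥(AA s) => ((c : ↥(CC s)) : Perm Ω)) hab
    exact Subtype.ext (ofSubtype_injective h1)
  · rintro ⟨c, hc⟩
    have h1 : ∀ x, s ((c : Perm Ω) x) = (c : Perm Ω) x ↔ s x = x := fun x => fix_iff c
    have h2 : ofSubtype (Perm.subtypePerm (p := fun x => s x = x) (c : Perm Ω) h1) = (c : Perm Ω) := by
      refine ofSubtype_subtypePerm (p := fun x => s x = x) h1 ?_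
      intro x hx
      by_contra h
      exact hx (hc x h)
    refine ⟨⟨Perm.subtypePerm (p := fun x => s x = x) (c : Perm Ω) h1, ?_⟩, ?_⟩
    · rw [mem_alternatingGroup, ← sign_ofSubtype, h2]
      exact (mem_CC.1 c.2).2
    · apply Subtype.ext; apply Subtype.ext
      exact h2

theorem simple (hF : 5 ≤ Fintype.card {x // s x = x}) : IsSimpleGroup ↥(AA s) := by
  have h1 : IsSimpleGroup ↥(alternatingGroup {x // s x = x}) := alternatingGroup.isSimpleGroup (by
    rw [Nat.card_eq_fintype_card]; exact hF)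
  exact (altEquiv s).symm.isSimpleGroup

/-- **The frame.** -/
theorem fr (hs : s * s = 1) (hsC : s ∈ CC s) (h1 : s ≠ 1) (hD : 4 ∣ s.support.card)
    (hF : 6 ≤ Fintype.card {x // s x = x}) : ∃ E, Fr ↥(CC s) ⟨s, hsC⟩ (AA s) (SS s) E := by
  obtain ⟨x, hx⟩ : ∃ x, s x ≠ x := by
    by_contra hcc
    push Not at hcc
    exact h1 (Equiv.ext hcc)
  obtain ⟨f, hf, -⟩ := exists_fix 0 (by omega) (s := s) ∅ (by simp)
  obtain ⟨g, hg, g1⟩ := exists_fix 1 (by omega) (s := s) {f} (by simp)
  rw [Finset.mem_singleton] at g1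
  have hfg : f ≠ g := fun e => g1 e.symm
  have hpos : 0 < s.support.card := Finset.card_pos.2 ⟨x, mem_support.2 hx⟩
  obtain ⟨y, hy⟩ : ∃ y, Dis s x y := by
    by_contra hcc
    push Not at hcc
    have h1 : s.support ⊆ ({x, s x} : Finset Ω) := by
      intro w hw
      rw [mem_support] at hw
      by_contra hw'
      simp only [Finset.mem_insert, Finset.mem_singleton, not_or] at hw'
      exact hcc w ⟨hx, hw, fun e => hw'.1 e.symm, fun e => hw'.2 (by rw [e, ss hs])⟩
    have h2 := (Finset.card_le_card h1).trans Finset.card_le_two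
    obtain ⟨k, hk⟩ := hD
    omega
  obtain ⟨E, En, ES, Esq, self, ab⟩ : ∃ E : Subgroup ↥(CC s), E.Normal ∧ E ≤ SS s ∧ (∀ x ∈ E, x * x = 1) ∧
      (∀ x ∈ SS s, (∀ e ∈ E, x * e = e * x) → x ∈ E) ∧ (∀ N : Subgroup ↥(CC s), N.Normal → N ≤ SS s →
        ∀ y ∈ N, y ≠ 1 → y ≠ ⟨s, hsC⟩ → (∀ n ∈ N, n * y = y * n) → ∀ n ∈ N, n * n = 1) := by
    by_cases h5 : 5 ≤ s.support.card
    · refine ⟨EE hs, EE_normal hs, EE_le_SS hs, fun x hx => EE_sq hs hx, ?_, ?_⟩
      · intro c hc h
        refine base_of_all hs h5 hc fun x y hx hy => ?_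
        have hm : (⟨_, trtr_mem hs hx hy⟩ : ↥(CC s)) ∈ EE hs := by
          intro w
          change (tr s x * tr s y) w = w ∨ (tr s x * tr s y) w = s w
          have hor : ∀ x w, tr s x w = w ∨ tr s x w = s w := by
            intro x w
            by_cases a1 : w = x
            · right; rw [a1, tr_left]
            by_cases a2 : w = s x
            · right; rw [a2, tr_right, ss hs]
            left; exact tr_of_ne a1 a2
          rw [Perm.mul_apply]
          rcases hor y w with e | e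
          · rw [e]; exact hor x w
          · rw [e, app_comm (tr_comm hs x)]
            rcases hor x w with e' | e'
            · right; rw [e']
            · left; rw [e', ss hs]
        exact congrArg Subtype.val (h _ hm)
      · intro N hN hNS y hy hy1 hy2 hc
        exact abel hs h5 hf hg hfg N hN hNS y hy hy1 (fun e => hy2 (Subtype.ext e)) hc
    · have h4 : s.support.card = 4 := by obtain ⟨k, hk⟩ := hD; omega
      refine ⟨SS s, SS_normal, le_rfl, fun x hx => sq_two hs h4 hx, fun c hc _ => hc, ?_⟩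
      intro N hN hNS y hy hy1 hy2 hc n hn
      exact sq_two hs h4 (hNS hn)
  refine ⟨E, ?_⟩
  exact
    { ne := fun e => h1 (congrArg Subtype.val e)
      sq := Subtype.ext hs
      cen := fun c => Subtype.ext (comm_of_mem c)
      memS := fun w hw => hw
      An := AA_normal
      simple := simple (by omega)
      na := na (by omega)
      cenA := fun c => ⟨fun hc a ha => comm_AS ha hc, fun h => mem_SS_of_comm (by omega) h⟩
      umin := fun N hN hNS hN1 => umin hs hsC hf hg hfg N hN hNS hN1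
      abel := ab
      En := En
      ES := ES
      Esq := Esq
      self := self
      odd := odd hs hx hf hg hfg
      cm := cm hs hy hf hg hfg
      rich := fun u hu hu1 hu2 => rich hF u hu hu1 hu2 }

end fields

end Cfsg.Agent.H313.Alt
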