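import Cfsg.Agent.H313.Elim
import Cfsg.Agent.LFour.ConclR
import Cfsg.Agent.OddHalf.NI3.Bad.PSUFour

/-!
# `PSL₄(q)`, `q` odd, by the centralizer of `diag(-1,-1,1,1)` (S3220), from the refined branches of S0510
-/

set_option autoImplicit false

namespace Cfsg.Agent.H313.LFourFinal

open Subgroup Matrix Cfsg.Agent.H313.Red Cfsg.Agent.H313.Elim
open Cfsg.Agent.Cit.LongBlock Cfsg.Agent.Cit.LongQuot Cfsg.Agent.Cit.LongMain Cfsg.Agent.Cit.LongConj Cfsg.Agent.Cit.LongAbs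
  Cfsg.Agent.Cit.LongInst Cfsg.Agent.Cit.LongModel Cfsg.Agent.Cit.LongTwo
open Cfsg.Agent.LFour

/-! ### arithmetic -/

theorem arith_bound {q M b : ℕ} (h : (q * (q ^ 2 - 1)) * (q * (q ^ 2 - 1)) ∣ M) (hM : 0 < M)
    (hb : M < (b * (b ^ 2 - 1)) * (b * (b ^ 2 - 1))) : q < b := by
  by_contra h1
  push Not at h1
  have h2 := Nat.le_of_dvd hM h
  have h3 : b ^ 2 - 1 ≤ q ^ 2 - 1 := Nat.sub_le_sub_right (Nat.pow_le_pow_left h1 2) 1
  have h4 : b * (b ^ 2 - 1) ≤ q * (q ^ 2 - 1) := Nat.mul_le_mul h1 h3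
  have h5 := Nat.mul_le_mul h4 h4
  omega

theorem arith22 {q : ℕ} (hq : q % 8 = 5) (h : (q * (q ^ 2 - 1)) * (q * (q ^ 2 - 1)) ∣ 2 * 443520) : False := by
  have h1 : q < 10 := arith_bound h (by norm_num) (by norm_num)
  have h2 : q = 5 := by omega
  subst h2
  revert h; norm_num

theorem arith23 {q : ℕ} (hq : q % 8 = 5) (h : (q * (q ^ 2 - 1)) * (q * (q ^ 2 - 1)) ∣ 2 * 10200960) : False := by
  have h1 : q < 17 := arith_bound h (by norm_num) (by norm_num)
  have h2 : q = 5 ∨ q = 13 := by omega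
  rcases h2 with rfl | rfl <;> (revert h; norm_num)

theorem arithMcL {q : ℕ} (hq : q % 8 = 5) (h : (q * (q ^ 2 - 1)) * (q * (q ^ 2 - 1)) ∣ 2 * 898128000) : q = 5 := by
  have h1 : q < 36 := arith_bound h (by norm_num) (by norm_num)
  have h2 : q = 5 ∨ q = 13 ∨ q = 21 ∨ q = 29 := by omega
  rcases h2 with rfl | rfl | rfl | rfl
  · rfl
  all_goals (revert h; norm_num)

/-! ### the element -/

theorem z0_eq {F : Type*} [Field F] (d : SpecialLinearGroup (Fin 4) F)
    (hd : (d : Matrix (Fin 4) (Fin 4) F) = Matrix.diagonal ![-1, -1, 1, 1]) :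
    (QuotientGroup.mk d : ProjectiveSpecialLinearGroup (Fin 4) F) = z0 (slRep F 2) := by
  have h1 : d = tt F 2 := by
    apply Subtype.ext
    rw [hd]
    ext i j
    fin_cases i <;> fin_cases j <;> first | rfl | exact (neg_zero (G := F)).symm
  rw [h1]
  rfl

/-- central elements of `SL₂` have square one -/
theorem center_sq {F : Type*} [Field F] {g : SpecialLinearGroup (Fin 2) F}
    (hg : ∀ x, x * g = g * x) : g * g = 1 := by
  have h6 : g ∈ center (SpecialLinearGroup (Fin 2) F) := mem_center_iff.2 hg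
  rw [Matrix.SpecialLinearGroup.mem_center_iff] at h6
  obtain ⟨c, hc, hc'⟩ := h6
  rw [Fintype.card_fin] at hc
  apply Subtype.ext
  change g.1 * g.1 = 1
  rw [← hc', ← map_mul, ← pow_two, hc, map_one]

/-! ### `McL` -/

theorem mcl_case {H : Type*} [Group H] [Finite H] {t : H} {τ s : ↥(centralizer ({t} : Set H))}
    {L₁ L₂ B P₁ P₂ : Subgroup ↥(centralizer ({t} : Set H))} (h : Facts τ s L₁ L₂ B P₁ P₂) (hτ : (τ : H) = t)
    (hA : GH.Defs.HasAltCover H) (hH : Nat.card H = 898128000) : 7 ∣ Nat.card ↥(centralizer ({t} : Set H)) := by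
  obtain ⟨n, t₀, K, hn, hK, htK, hc⟩ := hA
  have : Fact (Nat.Prime 2) := ⟨Nat.prime_two⟩
  have hKC : K ≤ centralizer ({t₀} : Set H) := hK.comp.1
  have h1 : Nat.card (GH.Defs.Bar K) = 2 * Nat.card (alternatingGroup (Fin n)) := by
    obtain ⟨h2, ⟨h3⟩, -⟩ := hc
    have h4 := Subgroup.card_eq_card_quotient_mul_card_subgroup (center (GH.Defs.Bar K))
    rw [h2, Nat.card_congr h3.toEquiv] at h4
    rw [h4, mul_comm]
  have hnt : Nontrivial (Fin n) := Fin.nontrivial_iff_two_le.2 (by omega)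
  have h2 : 2 * Nat.card (alternatingGroup (Fin n)) = n.factorial := by
    have := two_mul_nat_card_alternatingGroup (α := Fin n)
    rw [this, Nat.card_perm, Nat.card_fin]
  have h3 : 40320 ∣ Nat.card (GH.Defs.Bar K) := by
    rw [h1, h2]
    have : (8 : ℕ).factorial = 40320 := by decide
    rw [← this]
    exact Nat.factorial_dvd_factorial hn
  have h4 : 40320 ∣ Nat.card ↥(centralizer ({t₀} : Set H)) := by
    refine h3.trans ?_
    have h5 : Nat.card (GH.Defs.Bar K) ∣ Nat.card K := card_quotient_dvd_card _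
    exact h5.trans (card_dvd_of_le hKC)
  -- a Sylow 2-subgroup of `C(t₀)` is one of `H`
  obtain ⟨P⟩ : Nonempty (Sylow 2 ↥(centralizer ({t₀} : Set H))) := inferInstance
  have hfac : (Nat.card H).factorization 2 = 7 := by
    rw [hH]
    have : (898128000 : ℕ) = 2 ^ 7 * 7016625 := by norm_num
    rw [this, Nat.factorization_mul (by norm_num) (by norm_num), Nat.Prime.factorization_pow Nat.prime_two]
    simp [Nat.factorization_eq_zero_of_not_dvd]
  have hP : Nat.card (P.1.map (centralizer ({t₀} : Set H)).subtype) = 2 ^ (Nat.card H).factorization 2 := by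
    rw [hfac]
    have h5 : Nat.card (P.1.map (centralizer ({t₀} : Set H)).subtype) = Nat.card P.1 :=
      Nat.card_congr ((P.1).equivMapOfInjective _ (subtype_injective _)).symm.toEquiv
    rw [h5]
    apply Nat.dvd_antisymm
    · have h6 : Nat.card P.1 ∣ Nat.card H :=
        (card_subgroup_dvd_card _).trans (card_subgroup_dvd_card _)
      obtain ⟨k, hk⟩ := P.2.exists_card_eq
      have hk' : Nat.card P.1 = 2 ^ k := hk
      rw [hk'] at h6 ⊢
      have h7 := (Nat.prime_two.pow_dvd_iff_le_factorization (Nat.card_pos.ne')).1 h6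
      rw [hfac] at h7
      exact pow_dvd_pow 2 h7
    · have h6 : 2 ^ 7 ∣ Nat.card ↥(centralizer ({t₀} : Set H)) := (by norm_num : 2 ^ 7 ∣ 40320).trans h4
      exact P.pow_dvd_card_of_pow_dvd_card h6
  let S : Sylow 2 H := Sylow.ofCard _ hP
  have hS : ∀ x ∈ S, x * t₀ = t₀ * x := by
    intro x hx
    have h5 : x ∈ P.1.map (centralizer ({t₀} : Set H)).subtype := hx
    obtain ⟨y, -, rfl⟩ := h5
    exact mem_centralizer_singleton_iff.1 y.2
  have ht₀ : t₀ * t₀ = 1 := by rw [← pow_two, ← hK.inv, pow_orderOf_eq_one]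
  have ht₀' : t₀ ≠ 1 := by
    intro h5
    have := hK.inv
    rw [h5, orderOf_one] at this
    omega
  obtain ⟨g, hg⟩ := unique_central h hτ ht₀ ht₀' S hS
  obtain ⟨e, -⟩ := exists_cent (MulAut.conj g) t₀
  have h5 : MulAut.conj g t₀ = t := hg
  rw [h5] at e
  rw [← Nat.card_congr e.toEquiv]
  exact (by norm_num : 7 ∣ 40320).trans h4

/-! ### `π` on the components -/

theorem comp_equiv {X Y : Type*} [Group X] [Group Y] (π : X →* Y) (L : Subgroup X) (h : ∀ x ∈ L, π x = 1 → x = 1) :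
    Nonempty (L ≃* L.map π) :=
  ⟨MulEquiv.ofBijective (π.subgroupMap L) ⟨by
    rw [injective_iff_map_eq_one]
    intro a ha
    exact Subtype.ext (h a a.2 (congrArg Subtype.val ha)), π.subgroupMap_surjective L⟩⟩

universe u v

/-- the data on the quotient group -/
structure Data (F : Type v) [Field F] [Fintype F] (H : Type u) [Group H] [Finite H] : Prop where
  simple : IsSimpleGroup H
  syl : ∀ (S : Sylow 2 H) (P : Sylow 2 (ProjectiveSpecialLinearGroup (Fin 4) F)),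
    Nonempty ((S : Subgroup H) ≃* (P : Subgroup (ProjectiveSpecialLinearGroup (Fin 4) F)))
  ex : ∃ (t : H) (τ s : ↥(centralizer ({t} : Set H))) (L₁ L₂ B P₁ P₂ : Subgroup ↥(centralizer ({t} : Set H))) (k : ℕ),
    Facts τ s L₁ L₂ B P₁ P₂ ∧ (τ : H) = t ∧ Nonempty (L₁ ≃* SpecialLinearGroup (Fin 2) F) ∧
    Nonempty (L₂ ≃* SpecialLinearGroup (Fin 2) F) ∧ 0 < k ∧
    Nat.card (CC (slRep F 2)) = Nat.card ↥(centralizer ({t} : Set H)) * k

section data

variable {F : Type v} [Field F] [Fintype F] (ho : Odd (Fintype.card F)) {H : Type u} [Group H] [Finite H]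
  (D : Data F H)

include ho D

/-- the divisibility -/
theorem Data.dvd : (Fintype.card F * (Fintype.card F ^ 2 - 1)) * (Fintype.card F * (Fintype.card F ^ 2 - 1)) ∣
    2 * Nat.card H := by
  obtain ⟨t, τ, s, L₁, L₂, B, P₁, P₂, k, h, hτ, ⟨e₁⟩, ⟨e₂⟩, hk, hcard⟩ := D.ex
  have h1 := dvd_card h (fun a ha hc => by
    have h2 : e₁ ⟨a, ha⟩ * e₁ ⟨a, ha⟩ = 1 := by
      apply center_sq
      intro x
      obtain ⟨y, rfl⟩ := e₁.surjective x
      rw [← map_mul, ← map_mul]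
      congr 1
      exact Subtype.ext (hc y y.2)
    rw [← map_mul, ← map_one e₁] at h2
    exact congrArg Subtype.val (e₁.injective h2))
  rw [Nat.card_congr e₁.toEquiv, Nat.card_congr e₂.toEquiv, ClassicalGeometry.PSL2Basic.card_SL2] at h1
  exact h1.trans (mul_dvd_mul_left 2 (card_subgroup_dvd_card _))

theorem Data.not_m22 (hq : Fintype.card F % 8 = 5) (hH : Cfsg.IsM22 H) : False := by
  have h1 := D.dvd ho
  rw [hH.2] at h1
  exact arith22 hq h1

theorem Data.not_m23 (hq : Fintype.card F % 8 = 5) (hH : Cfsg.IsM23 H) : False := by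
  have h1 := D.dvd ho
  rw [hH.2] at h1
  exact arith23 hq h1

theorem Data.not_mcl (hq : Fintype.card F % 8 = 5) (hA : GH.Defs.HasAltCover H) (hH : Cfsg.IsMcL H) : False := by
  have h1 := D.dvd ho
  rw [hH.2] at h1
  have h5 := arithMcL hq h1
  obtain ⟨t, τ, s, L₁, L₂, B, P₁, P₂, k, h, hτ, ⟨e₁⟩, ⟨e₂⟩, hk, hcard⟩ := D.ex
  have h7 := mcl_case h hτ hA hH.2
  obtain ⟨z, hz1, hz2, hz⟩ := ModelCard.card_sl ho rfl
  have h8 : 7 ∣ 2 * ((Fintype.card F - 1) * ((Fintype.card F * (Fintype.card F ^ 2 - 1)) *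
      (Fintype.card F * (Fintype.card F ^ 2 - 1)))) := by
    rw [← hz, hcard]
    exact (h7.mul_right k).mul_right z
  rw [h5] at h8
  revert h8
  norm_num

theorem Data.not_alt {α : Type*} [Fintype α] [DecidableEq α] (e : H ≃* alternatingGroup α) : False := by
  obtain ⟨t, τ, s, L₁, L₂, B, P₁, P₂, k, h, hτ, ⟨e₁⟩, ⟨e₂⟩, hk, hcard⟩ := D.ex
  exact Elim.not_alt h hτ e

omit D in
theorem three_le : 3 ≤ Fintype.card F := by
  have h1 : 1 < Fintype.card F := Fintype.one_lt_card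
  obtain ⟨k, hk⟩ := ho
  omega

omit ho D in
theorem sl_inj {q r : ℕ} (h : q * (q ^ 2 - 1) = r * (r ^ 2 - 1)) (hq : 1 < q) (hr : 1 < r) : q = r := by
  have key : ∀ a b : ℕ, 1 < a → a < b → a * (a ^ 2 - 1) < b * (b ^ 2 - 1) := by
    intro a b ha hab
    have h1 : a ^ 2 - 1 ≤ b ^ 2 - 1 := Nat.sub_le_sub_right (Nat.pow_le_pow_left hab.le 2) 1
    have h2 : 0 < b ^ 2 - 1 := by
      have : 1 < b ^ 2 := Nat.one_lt_pow (by norm_num) (by omega)
      omega
    calc a * (a ^ 2 - 1) ≤ a * (b ^ 2 - 1) := Nat.mul_le_mul_left _ h1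
      _ < b * (b ^ 2 - 1) := Nat.mul_lt_mul_of_pos_right hab h2
  rcases lt_trichotomy q r with h1 | h1 | h1
  · exact absurd h (key q r hq h1).ne
  · exact h1
  · exact absurd h.symm (key r q hr h1).ne

/-- the case `PSU₄(r)`: `q = 3` -/
theorem Data.psu {K : Type*} [Field K] [Fintype K] {r : ℕ} (hK : Fintype.card K = r ^ 2) (hr : Odd r)
    (f : H ≃* Cfsg.PSU 4 K r) : Fintype.card F = 3 ∧ r = 3 := by
  obtain ⟨t, τ, s, L₁, L₂, B, P₁, P₂, k, h, hτ, ⟨e₁⟩, ⟨e₂⟩, hk, hcard⟩ := D.ex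
  have hoK : Odd (Fintype.card K) := by rw [hK]; exact hr.pow
  obtain ⟨h1, h2⟩ := rep_case h hτ (su_good2 hK hoK) (su_swap2 hK) (fun S z a b c => su4_two_central hoK hK S a b c) f ho e₁
  rw [ClassicalGeometry.PSL2Basic.card_SL2, ClassicalGeometry.PSL2Basic.card_SL2, card_KK] at h1
  have hr1 : 1 < r := by
    have h3 : 1 < Fintype.card K := Fintype.one_lt_card
    rw [hK] at h3
    by_contra h4
    have h5 : r ≤ 1 := by omega
    have : r ^ 2 ≤ 1 ^ 2 := Nat.pow_le_pow_left h5 2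
    omega
  have hqr : Fintype.card F = r := sl_inj h1 Fintype.one_lt_card hr1
  obtain ⟨z, hz1, hz2, hz⟩ := ModelCard.card_sl ho rfl
  obtain ⟨z', hz1', hz2', hz'⟩ := ModelCard.card_su hK hoK (N := Fintype.card F * (Fintype.card F ^ 2 - 1)) (by rw [hqr])
  have hq3 : Fintype.card F = 3 := by
    refine ModelCard.compare (three_le ho) ?_ hz1 hz2 hz1' hz (hz'.trans (by rw [hqr])) (by rw [hcard, h2]) hk
    have := three_le ho
    have h9 : 1 < Fintype.card F ^ 2 := Nat.one_lt_pow (by norm_num) (by omega)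
    exact Nat.mul_pos (by omega) (by omega)
  exact ⟨hq3, by rw [← hqr, hq3]⟩

/-- the case `PSL₄(r)` -/
theorem Data.psl {K : Type*} [Field K] [Fintype K] (hoK : Odd (Fintype.card K))
    (f : H ≃* ProjectiveSpecialLinearGroup (Fin 4) K) : Nonempty (H ≃* ProjectiveSpecialLinearGroup (Fin 4) F) := by
  obtain ⟨t, τ, s, L₁, L₂, B, P₁, P₂, k, h, hτ, ⟨e₁⟩, ⟨e₂⟩, hk, hcard⟩ := D.ex
  obtain ⟨h1, h2⟩ := rep_case h hτ (sl_good2 hoK) sl_swap2 (fun S z a b c => sl4_two_central hoK S a b c) f ho e₁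
  rw [ClassicalGeometry.PSL2Basic.card_SL2, ClassicalGeometry.PSL2Basic.card_SL2] at h1
  have hqr : Fintype.card F = Fintype.card K := sl_inj h1 Fintype.one_lt_card Fintype.one_lt_card
  exact ⟨f.trans (LieClassical.FieldTransfer.pslCongr (FiniteField.ringEquivOfCardEq hqr.symm))⟩

/-- `ConclLU`, `q > 3` -/
theorem Data.conclLU (h3 : Fintype.card F ≠ 3) (hc : ConclLU H) :
    Nonempty (H ≃* ProjectiveSpecialLinearGroup (Fin 4) F) := by
  rcases hc with ⟨K, _, _, hK, ⟨f⟩⟩ | ⟨K, _, _, r, hK, hr, ⟨f⟩⟩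
  · exact D.psl ho hK f
  · exact absurd (D.psu ho hK hr f).1 h3

/-- `ConclLU`, two classes of involutions -/
theorem Data.conclLU' {x y : H} (hx : orderOf x = 2) (hy : orderOf y = 2) (hxy : ¬ IsConj x y) (hc : ConclLU H) :
    Nonempty (H ≃* ProjectiveSpecialLinearGroup (Fin 4) F) := by
  rcases hc with ⟨K, _, _, hK, ⟨f⟩⟩ | ⟨K, _, _, r, hK, hr, ⟨f⟩⟩
  · exact D.psl ho hK f
  · exfalso
    obtain ⟨-, rfl⟩ := D.psu ho hK hr f
    have hx' : orderOf (f x) = 2 := by rw [MulEquiv.orderOf_eq, hx]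
    have hy' : orderOf (f y) = 2 := by rw [MulEquiv.orderOf_eq, hy]
    obtain ⟨g, hg⟩ := OddHalf.NI3.Bad.PSUFour.isConj hK hx' hy'
    apply hxy
    rw [isConj_iff]
    obtain ⟨g, rfl⟩ := f.surjective g
    refine ⟨g, f.injective ?_⟩
    rw [map_mul, map_mul, map_inv, hg]

/-- **the simple group is `PSL₄(q)`** -/
theorem Data.main (hA1 : BranchA1LU.{u}) (hA2 : BranchA2A.{u}) (hB1 : BranchB1LU.{u}) (hB5 : BranchB5R.{u}) :
    Nonempty (H ≃* ProjectiveSpecialLinearGroup (Fin 4) F) := by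
  have := D.simple
  obtain ⟨S⟩ : Nonempty (Sylow 2 H) := inferInstance
  obtain ⟨P⟩ : Nonempty (Sylow 2 (ProjectiveSpecialLinearGroup (Fin 4) F)) := inferInstance
  have hS := D.syl S P
  have hF2 : Fintype.card F % 2 = 1 := Nat.odd_iff.1 ho
  have h4 : Fintype.card F % 4 = 3 ∨ Fintype.card F % 8 = 1 ∨ Fintype.card F % 8 = 5 := by omega
  rcases h4 with h4 | h4 | h4
  · obtain ⟨k, m, f, w, h, -, -⟩ := Cfsg.Agent.LFourA.SylPsl.exists_dwr h4 (S : Subgroup H) P hS
    have hG := hom_units_trivial (two_lt_card_of_dwr h)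
    obtain ⟨f', h', hc⟩ := Cfsg.Agent.LFourA.FusionMain.main h hG
    have hf : ∀ a b, a * a = 1 → b * b = 1 → ¬ (a = 1 ∧ b = 1) → orderOf (f' a b) = 2 := by
      intro a b ha hb hab
      apply orderOf_eq_prime
      · rw [pow_two, h'.f_mul, ha, hb]
        have h5 := h'.f_mul 1 1 1 1
        rw [one_mul] at h5
        exact (mul_eq_left.1 h5)
      · intro h5
        exact hab (h'.f_inj a b h5)
    rcases hc with hc | hc
    · have c2 := Cfsg.Agent.LFourA.Model.c_mul_c (k := k)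
      have c1 := Cfsg.Agent.LFourA.Model.c_ne_one (k := k)
      exact D.conclLU' ho (hf _ _ c2 (one_mul 1) (fun h => c1 h.1)) (hf _ _ c2 c2 (fun h => c1 h.1)) hc.tz
        (hA1 H S k f' w h' hc)
    · rcases hA2 H S k f' w h' hc with ⟨⟨e⟩⟩ | ⟨⟨e⟩⟩
      · exact (D.not_alt ho e).elim
      · exact (D.not_alt ho e).elim
  · obtain ⟨e⟩ := hS
    obtain ⟨m, r, f, u, w, -, -, h⟩ := Cfsg.Agent.LFourB.Mono.exists_BOne h4 S P e
    exact D.conclLU ho (by omega) (hB1 H S m f u w h)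
  · obtain ⟨e⟩ := hS
    obtain ⟨f, d, h⟩ := Cfsg.Agent.LFourB.Mono.exists_MB_two h4 S P e
    rcases hB5 H S (Cfsg.Agent.LFourB.MBSeven.nonempty_equiv h) with hc | hc | hc | ⟨hc, hc'⟩
    · exact D.conclLU ho (by omega) hc
    · exact (D.not_m22 ho h4 hc).elim
    · exact (D.not_m23 ho h4 hc).elim
    · exact (D.not_mcl ho h4 hc hc').elim

end data

/-- **S3220 from the refined branches of S0510** -/
theorem main (hA1 : BranchA1LU.{u}) (hA2 : BranchA2A.{u}) (hB1 : BranchB1LU.{u}) (hB5 : BranchB5R.{u})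
    {G : Type u} [Group G] [Finite G]
    (hG : ∀ H : Subgroup G, H.index ≠ 2) {F : Type v} [Field F] [Fintype F] (ho : Odd (Fintype.card F))
    (d : Matrix.SpecialLinearGroup (Fin 4) F) (hd : (d : Matrix (Fin 4) (Fin 4) F) = Matrix.diagonal ![-1, -1, 1, 1])
    (t : G) (ht : orderOf t = 2)
    (e : ↥(Subgroup.centralizer ({t} : Set G)) ≃*
      ↥(Subgroup.centralizer ({(QuotientGroup.mk d : Matrix.ProjectiveSpecialLinearGroup (Fin 4) F)} : Set (Matrix.ProjectiveSpecialLinearGroup (Fin 4) F)))) :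
    Nonempty (G ≃* Matrix.ProjectiveSpecialLinearGroup (Fin 4) F) := by
  rw [z0_eq d hd] at e
  obtain ⟨s, P₁, P₂, hX⟩ := Model.facts (slRep_model F 2) ho
  obtain ⟨hs, hna, π, hπs, hπo, hF, hτ, hSyl, hinj⟩ := hX.main ht e hG
  have hR := slRep_model F 2
  obtain ⟨e0⟩ := un_empty_equiv F (Fin 2)
  obtain ⟨f1⟩ := hR.toW.equiv1
  obtain ⟨f2⟩ := hR.toW.equiv2
  have e1 : D1 (slRep F 2) ≃* SpecialLinearGroup (Fin 2) F := (D1Equiv (slRep F 2)).symm.trans (f1.trans e0)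
  have e2 : D2 (slRep F 2) ≃* SpecialLinearGroup (Fin 2) F := (D2Equiv (slRep F 2)).symm.trans (f2.trans e0)
  have e1' : (D1 (slRep F 2)).subgroupOf (CC (slRep F 2)) ≃* SpecialLinearGroup (Fin 2) F :=
    (subgroupOfEquivOfLe ((D1_le _).trans (C0_le _))).trans e1
  have e2' : (D2 (slRep F 2)).subgroupOf (CC (slRep F 2)) ≃* SpecialLinearGroup (Fin 2) F :=
    (subgroupOfEquivOfLe ((D2_le _).trans (C0_le _))).trans e2
  obtain ⟨g1⟩ := comp_equiv π ((D1 (slRep F 2)).subgroupOf (CC (slRep F 2)))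
    (fun x hx h1 => hX.inf_odd π.ker inferInstance hπo (MonoidHom.mem_ker.2 h1) hx)
  obtain ⟨g2⟩ := comp_equiv π ((D2 (slRep F 2)).subgroupOf (CC (slRep F 2)))
    (fun x hx h1 => hX.symm.inf_odd π.ker inferInstance hπo (MonoidHom.mem_ker.2 h1) hx)
  have hcard : Nat.card (CC (slRep F 2)) =
      Nat.card ↥(centralizer ({(QuotientGroup.mk' (Cfsg.pPrimeCore 2 G) t)} : Set (G ⧸ Cfsg.pPrimeCore 2 G))) *
        Nat.card π.ker := by
    have h1 := card_mul_index π.ker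
    rw [index_ker, MonoidHom.range_eq_top.2 hπs, card_top] at h1
    rw [← h1, mul_comm]
  have D : Data F (G ⧸ Cfsg.pPrimeCore 2 G) :=
    { simple := hs
      syl := by
        intro S P
        obtain ⟨R⟩ : Nonempty (Sylow 2 (CC (slRep F 2))) := inferInstance
        obtain ⟨a⟩ := hSyl S R
        obtain ⟨b⟩ := hX.sylow_equiv rfl P R
        exact ⟨a.trans b.symm⟩
      ex := ⟨_, _, _, _, _, _, _, _, Nat.card π.ker, hF, hτ, ⟨g1.symm.trans e1'⟩, ⟨g2.symm.trans e2'⟩, Nat.card_pos, hcard⟩ }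
  obtain ⟨f⟩ := D.main ho hA1 hA2 hB1 hB5
  obtain ⟨-, h2⟩ := rep_case hF hτ (sl_good2 ho) sl_swap2 (fun S z a b c => sl4_two_central ho S a b c) f ho
    (g1.symm.trans e1')
  have hker : Nat.card π.ker = 1 := by
    rw [h2] at hcard
    have hpos : 0 < Nat.card (CC (slRep F 2)) := Nat.card_pos
    exact Nat.eq_of_mul_eq_mul_left hpos (by rw [← hcard, mul_one])
  have hbot := hinj ((MonoidHom.ker_eq_bot_iff _).1 (Subgroup.card_eq_one.1 hker))
  exact ⟨((QuotientGroup.quotientBot.symm.trans (QuotientGroup.quotientMulEquivOfEq hbot.symm)).trans f)⟩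

end Cfsg.Agent.H313.LFourFinal
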