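import Mathlib
import Cfsg.Agent.LFourA.SylDih
import Cfsg.Agent.LFourA.Facts
import Cfsg.Agent.H313.AltC

/-!
# The Sylow 2-subgroups of the alternating groups of degree ten and eleven (helper313)
-/

set_option autoImplicit false
set_option linter.unusedSectionVars false

namespace Cfsg.Agent.H313.TenModel

open DihedralGroup Cfsg.Agent.LFourA.Model Cfsg.Agent.LFourA.SylDih Cfsg.Agent.LFourA.Base
open Equiv Equiv.Perm

/-- a rotation of the square `0, 1, 2, 3` -/
def rho : Equiv.Perm (Fin 10) := c[0, 1, 2, 3] * c[8, 9]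

/-- a reflection of the square `0, 1, 2, 3` -/
def tau : Equiv.Perm (Fin 10) := c[0, 1] * c[2, 3]

/-- the swap of the two squares -/
def sw : Equiv.Perm (Fin 10) := c[0, 4] * c[1, 5] * c[2, 6] * c[3, 7]

/-- the dihedral group on the square `0, 1, 2, 3` -/
def phi : D 0 →* Equiv.Perm (Fin 10) :=
  dih (n := 4 * 2 ^ 0) rho tau (by decide +kernel) (by decide +kernel) (by decide +kernel)

instance decEqD : DecidableEq (D 0) := inferInstance

instance fintypeD : Fintype (D 0) := inferInstance

/-- the base group -/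
def ff (a b : D 0) : Equiv.Perm (Fin 10) := sw * phi a * sw * phi b

theorem comm_all : ∀ a b : D 0, (sw * phi a * sw) * phi b = phi b * (sw * phi a * sw) := by
  decide +kernel

theorem int_all : ∀ a b : D 0, sw * phi a * sw = phi b → b = 1 := by
  decide +kernel

theorem ne_all : ∀ a b : D 0, sw ≠ sw * phi a * sw * phi b := by
  decide +kernel

theorem exists_model : ∃ S : Subgroup (Equiv.Perm (Fin 10)), DWr S 0 ff sw :=
  exists_dwr phi sw (by decide +kernel) comm_all int_all ne_all

theorem sign_ff : ∀ a b : D 0, sign (ff a b) = 1 := by decide +kernel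

theorem sign_sw : sign sw = 1 := by decide +kernel

/-- the involution with four moved points -/
def s1 : Perm (Fin 10) := ff (c 0) 1

/-- the involution with eight moved points -/
def s2 : Perm (Fin 10) := ff (c 0) (c 0)

theorem ff_s1 : ∀ a b : D 0, ff a b * s1 = s1 * ff a b := by decide +kernel

theorem ff_s2 : ∀ a b : D 0, ff a b * s2 = s2 * ff a b := by decide +kernel

theorem sw_s2 : sw * s2 = s2 * sw := by decide +kernel

theorem supp_s1 : s1.support.card = 4 := by decide +kernel
theorem supp_s1' : (ff 1 (c 0)).support.card = 4 := by decide +kernel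
theorem supp_s2 : s2.support.card = 8 := by decide +kernel
theorem supp_sw : sw.support.card = 8 := by decide +kernel

/-- the elements of the second factor are disjoint from `s1` -/
theorem disj_s1 : ∀ b : D 0, ∀ x, ff 1 b x = x ∨ s1 x = x := by decide +kernel

/-- an element of the centralizer of `s1` -/
def g0 : Perm (Fin 10) := c[0, 1, 3, 9] * c[2, 8]

theorem g0_conj : g0 * ff (sr 0) (sr 0) * g0⁻¹ = ff (sr 0) (sr 1) := by decide +kernel

theorem g0_s1 : g0 * s1 = s1 * g0 := by decide +kernel

theorem sign_g0 : sign g0 = 1 := by decide +kernel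

section emb

variable {Ω : Type*} [DecidableEq Ω] [Fintype Ω]

/-- involutions with the same number of moved points are conjugate -/
theorem isConj_of_card {σ τ : Perm Ω} (hσ : σ * σ = 1) (hτ : τ * τ = 1) (h : σ.support.card = τ.support.card) :
    IsConj σ τ := by
  have : Fact (Nat.Prime 2) := ⟨Nat.prime_two⟩
  rw [Perm.isConj_iff_cycleType_eq]
  have h1 := cycleType_of_pow_prime_eq_one (p := 2) (σ := σ) (by rw [pow_two]; exact hσ)
  have h2 := cycleType_of_pow_prime_eq_one (p := 2) (σ := τ) (by rw [pow_two]; exact hτ)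
  have h3 := σ.sum_cycleType
  have h4 := τ.sum_cycleType
  rw [h1, Multiset.sum_replicate, smul_eq_mul] at h3
  rw [h2, Multiset.sum_replicate, smul_eq_mul] at h4
  rw [h1, h2]
  congr 1
  omega

/-- **The model inside a symmetric group.** -/
theorem exists_emb (h10 : 10 ≤ Fintype.card Ω) {s0 : Perm (Fin 10)} (h0 : s0 * s0 = 1) {s : Perm Ω} (hs : s * s = 1)
    (hc : s.support.card = s0.support.card) :
    ∃ ι : Perm (Fin 10) →* Perm Ω, Function.Injective ι ∧ ι s0 = s ∧ (∀ x, sign (ι x) = sign x) ∧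
      (∀ x, (ι x).support.card = x.support.card) ∧ ∀ x y, Disjoint x y → Disjoint (ι x) (ι y) := by
  obtain ⟨i⟩ : Nonempty (Fin 10 ↪ Ω) := Function.Embedding.nonempty_of_card_le (by rw [Fintype.card_fin]; exact h10)
  let e := i.toEquivRange
  let ι0 : Perm (Fin 10) →* Perm Ω := extendDomainHom e
  have h1 : IsConj (ι0 s0) s := by
    apply isConj_of_card
    · rw [← map_mul, h0, map_one]
    · exact hs
    · rw [hc]; exact card_support_extend_domain e
  obtain ⟨g, hg⟩ := isConj_iff.1 h1
  refine ⟨(MulAut.conj g).toMonoidHom.comp ι0, (MulAut.conj g).injective.comp (extendDomainHom_injective e), hg,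
    ?_, ?_, ?_⟩
  · intro x
    change sign (g * ι0 x * g⁻¹) = sign x
    rw [Perm.sign_mul, Perm.sign_mul, mul_right_comm, ← Perm.sign_mul, mul_inv_cancel, Perm.sign_one, one_mul]
    exact sign_extendDomain x e
  · intro x
    change (g * ι0 x * g⁻¹).support.card = x.support.card
    rw [card_support_conj]
    exact card_support_extend_domain e
  · intro x y hxy
    exact (hxy.extendDomain e).conj g

end emb

section map

/-- coordinates and injective homomorphisms -/
theorem dwr_map {G G' : Type*} [Group G] [Group G'] {S : Subgroup G} {k : ℕ} {f : D k → D k → G} {w : G}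
    (h : DWr S k f w) (ψ : G →* G') (hψ : Function.Injective ψ) :
    DWr (S.map ψ) k (fun a b => ψ (f a b)) (ψ w) := by
  refine ⟨fun a b a' b' => by rw [← map_mul, h.f_mul], fun a b e => h.f_inj _ _ ((map_eq_one_iff ψ hψ).1 e),
    by rw [← map_mul, h.w_w, map_one], fun a b => by rw [← map_mul, h.w_f, map_mul],
    fun a b e => h.w_ne _ _ (hψ e), ?_⟩
  intro g
  constructor
  · rintro ⟨x, hx, rfl⟩
    rcases (h.mem_iff _).1 hx with ⟨a, b, rfl⟩ | ⟨a, b, rfl⟩
    · exact Or.inl ⟨a, b, rfl⟩
    · exact Or.inr ⟨a, b, map_mul _ _ _⟩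
  · rintro (⟨a, b, rfl⟩ | ⟨a, b, rfl⟩)
    · exact ⟨_, f_mem h a b, rfl⟩
    · exact ⟨_, fw_mem h a b, map_mul _ _ _⟩

/-- coordinates and subgroups -/
theorem dwr_res {G : Type*} [Group G] {S N : Subgroup G} {k : ℕ} {f : D k → D k → G} {w : G}
    (h : DWr S k f w) (hSN : S ≤ N) :
    DWr (S.subgroupOf N) k (fun a b => ⟨f a b, hSN (f_mem h a b)⟩) ⟨w, hSN (w_mem h)⟩ := by
  refine ⟨fun a b a' b' => Subtype.ext (h.f_mul _ _ _ _), fun a b e => h.f_inj _ _ (congrArg Subtype.val e),
    Subtype.ext h.w_w, fun a b => Subtype.ext (h.w_f _ _), fun a b e => h.w_ne _ _ (congrArg Subtype.val e), ?_⟩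
  intro g
  rw [Subgroup.mem_subgroupOf, h.mem_iff]
  constructor
  · rintro (⟨a, b, e⟩ | ⟨a, b, e⟩)
    · exact Or.inl ⟨a, b, Subtype.ext e⟩
    · exact Or.inr ⟨a, b, Subtype.ext e⟩
  · rintro (⟨a, b, e⟩ | ⟨a, b, e⟩)
    · exact Or.inl ⟨a, b, congrArg Subtype.val e⟩
    · exact Or.inr ⟨a, b, congrArg Subtype.val e⟩

end map

end Cfsg.Agent.H313.TenModel
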