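import Mathlib
import Cfsg.Agent.LFourA.SylDih
import Cfsg.Agent.H313.AltC
import Cfsg.Agent.H313.TenModel

/-!
# Sylow subgroups of the centralizer of an involution with eight moved points in `A_14` (helper313)
-/

set_option autoImplicit false
set_option linter.unusedSectionVars false

namespace Cfsg.Agent.H313.OddSixModel

open Equiv Equiv.Perm

/-! ### Elementary abelian groups of order 27 -/

section tri

variable {G : Type*} [Group G]

/-- a homomorphism given by an element of order dividing `n` -/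
def pw {n : ℕ} [NeZero n] (x : G) (hx : x ^ n = 1) : Multiplicative (ZMod n) →* G where
  toFun a := x ^ a.toAdd.val
  map_one' := by
    change x ^ (0 : ZMod n).val = 1
    rw [ZMod.val_zero, pow_zero]
  map_mul' a b := LFourA.SylDih.pow_val_add hx _ _

/-- three commuting elements of order three -/
def tri (x y z : G) (hx : x ^ 3 = 1) (hy : y ^ 3 = 1) (hz : z ^ 3 = 1) (hxy : x * y = y * x) (hxz : x * z = z * x)
    (hyz : y * z = z * y) : Multiplicative (ZMod 3) × Multiplicative (ZMod 3) × Multiplicative (ZMod 3) →* G where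
  toFun p := x ^ p.1.toAdd.val * (y ^ p.2.1.toAdd.val * z ^ p.2.2.toAdd.val)
  map_one' := by
    change x ^ (0 : ZMod 3).val * (y ^ (0 : ZMod 3).val * z ^ (0 : ZMod 3).val) = 1
    simp [ZMod.val_zero]
  map_mul' p q := by
    change x ^ (p.1.toAdd + q.1.toAdd).val * (y ^ (p.2.1.toAdd + q.2.1.toAdd).val * z ^ (p.2.2.toAdd + q.2.2.toAdd).val) = _
    rw [LFourA.SylDih.pow_val_add hx, LFourA.SylDih.pow_val_add hy, LFourA.SylDih.pow_val_add hz]
    have c1 : Commute x y := hxy
    have c2 : Commute x z := hxz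
    have c3 : Commute y z := hyz
    have d1 := (c1.pow_pow q.1.toAdd.val p.2.1.toAdd.val)
    have d2 := (c2.pow_pow q.1.toAdd.val p.2.2.toAdd.val)
    have d3 := (c3.pow_pow q.2.1.toAdd.val p.2.2.toAdd.val)
    generalize x ^ p.1.toAdd.val = x1
    generalize x ^ q.1.toAdd.val = x2 at d1 d2 ⊢
    generalize y ^ p.2.1.toAdd.val = y1 at d1 ⊢
    generalize y ^ q.2.1.toAdd.val = y2 at d3 ⊢
    generalize z ^ p.2.2.toAdd.val = z1 at d2 d3 ⊢
    generalize z ^ q.2.2.toAdd.val = z2
    calc x1 * x2 * (y1 * y2 * (z1 * z2)) = x1 * (x2 * y1) * (y2 * z1) * z2 := by group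
      _ = x1 * (y1 * x2) * (z1 * y2) * z2 := by rw [d1.eq, d3.eq]
      _ = x1 * y1 * (x2 * z1) * y2 * z2 := by group
      _ = x1 * y1 * (z1 * x2) * y2 * z2 := by rw [d2.eq]
      _ = x1 * (y1 * z1) * (x2 * (y2 * z2)) := by group

end tri

/-! ### The elements -/

/-- the involution -/
def s0 : Perm (Fin 14) := c[0, 1] * c[2, 3] * c[4, 5] * c[6, 7]

def x1 : Perm (Fin 14) := c[8, 9, 10]
def x2 : Perm (Fin 14) := c[11, 12, 13]
def x3 : Perm (Fin 14) := c[0, 2, 4] * c[1, 3, 5]
def y1 : Perm (Fin 14) := c[8, 9, 11]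
def y2 : Perm (Fin 14) := c[10, 12, 13]
def y3 : Perm (Fin 14) := c[0, 2, 6] * c[1, 3, 7]
def w3 : Perm (Fin 14) := c[1, 2, 7] * c[0, 3, 6]

abbrev T3 := Multiplicative (ZMod 3) × Multiplicative (ZMod 3) × Multiplicative (ZMod 3)

def ha : T3 →* Perm (Fin 14) := tri x1 x2 x3 (by decide +kernel) (by decide +kernel) (by decide +kernel)
  (by decide +kernel) (by decide +kernel) (by decide +kernel)

def hc : T3 →* Perm (Fin 14) := tri y1 y2 y3 (by decide +kernel) (by decide +kernel) (by decide +kernel)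
  (by decide +kernel) (by decide +kernel) (by decide +kernel)

def hd : T3 →* Perm (Fin 14) := tri y1 y2 w3 (by decide +kernel) (by decide +kernel) (by decide +kernel)
  (by decide +kernel) (by decide +kernel) (by decide +kernel)

theorem ha_inj : ∀ p : T3, ha p = 1 → p = 1 := by decide +kernel
theorem hc_inj : ∀ p : T3, hc p = 1 → p = 1 := by decide +kernel
theorem hd_inj : ∀ p : T3, hd p = 1 → p = 1 := by decide +kernel

theorem hac : ∀ p q : T3, ha p = hc q → ha p = 1 := by decide +kernel
theorem had : ∀ p q : T3, ha p = hd q → ha p = 1 := by decide +kernel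

theorem hnot : ∀ p q : T3, ha p * y3 * (ha p)⁻¹ ≠ hd q := by decide +kernel

/-! ### Elements of order five -/

def v1 : Perm (Fin 14) := c[8, 9, 10, 11, 12]
def v2 : Perm (Fin 14) := c[8, 9, 10, 12, 11]
def v3 : Perm (Fin 14) := c[8, 9, 10, 11, 13]

abbrev T5 := Multiplicative (ZMod 5)

def ka : T5 →* Perm (Fin 14) := pw v1 (by decide +kernel)
def kc : T5 →* Perm (Fin 14) := pw v2 (by decide +kernel)
def kd : T5 →* Perm (Fin 14) := pw v3 (by decide +kernel)

theorem ka_inj : ∀ p : T5, ka p = 1 → p = 1 := by decide +kernel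
theorem kc_inj : ∀ p : T5, kc p = 1 → p = 1 := by decide +kernel
theorem kd_inj : ∀ p : T5, kd p = 1 → p = 1 := by decide +kernel

theorem kac : ∀ p q : T5, ka p = kc q → ka p = 1 := by decide +kernel
theorem kad : ∀ p q : T5, ka p = kd q → ka p = 1 := by decide +kernel

theorem knot : ∀ p q : T5, ka p * v2 * (ka p)⁻¹ ≠ kd q := by decide +kernel

/-! ### Commutators of involutions -/

/-- a commutator of even involutions commuting with `s0` -/
def CI (g : Perm (Fin 14)) : Prop :=
  ∃ a b : Perm (Fin 14), a * a = 1 ∧ b * b = 1 ∧ a * s0 = s0 * a ∧ b * s0 = s0 * b ∧ sign a = 1 ∧ sign b = 1 ∧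
    b * a * b * a = g

theorem ci_x1 : CI x1 := ⟨c[8, 9] * c[11, 12], c[9, 10] * c[11, 12], by decide +kernel, by decide +kernel,
  by decide +kernel, by decide +kernel, by decide +kernel, by decide +kernel, by decide +kernel⟩
theorem ci_x2 : CI x2 := ⟨c[11, 12] * c[8, 9], c[12, 13] * c[8, 9], by decide +kernel, by decide +kernel,
  by decide +kernel, by decide +kernel, by decide +kernel, by decide +kernel, by decide +kernel⟩
theorem ci_y1 : CI y1 := ⟨c[8, 9] * c[10, 12], c[9, 11] * c[10, 12], by decide +kernel, by decide +kernel,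
  by decide +kernel, by decide +kernel, by decide +kernel, by decide +kernel, by decide +kernel⟩
theorem ci_y2 : CI y2 := ⟨c[10, 12] * c[8, 9], c[12, 13] * c[8, 9], by decide +kernel, by decide +kernel,
  by decide +kernel, by decide +kernel, by decide +kernel, by decide +kernel, by decide +kernel⟩
theorem ci_x3 : CI x3 := ⟨c[0, 2] * c[1, 3], c[2, 4] * c[3, 5], by decide +kernel, by decide +kernel,
  by decide +kernel, by decide +kernel, by decide +kernel, by decide +kernel, by decide +kernel⟩
theorem ci_y3 : CI y3 := ⟨c[0, 2] * c[1, 3], c[2, 6] * c[3, 7], by decide +kernel, by decide +kernel,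
  by decide +kernel, by decide +kernel, by decide +kernel, by decide +kernel, by decide +kernel⟩
theorem ci_w3 : CI w3 := ⟨c[1, 2] * c[0, 3], c[2, 7] * c[3, 6], by decide +kernel, by decide +kernel,
  by decide +kernel, by decide +kernel, by decide +kernel, by decide +kernel, by decide +kernel⟩
theorem ci_v1 : CI v1 := ⟨c[9, 12] * c[10, 11], c[8, 11] * c[9, 10], by decide +kernel, by decide +kernel,
  by decide +kernel, by decide +kernel, by decide +kernel, by decide +kernel, by decide +kernel⟩
theorem ci_v2 : CI v2 := ⟨c[9, 11] * c[10, 12], c[8, 12] * c[9, 10], by decide +kernel, by decide +kernel,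
  by decide +kernel, by decide +kernel, by decide +kernel, by decide +kernel, by decide +kernel⟩
theorem ci_v3 : CI v3 := ⟨c[9, 13] * c[10, 11], c[8, 11] * c[9, 10], by decide +kernel, by decide +kernel,
  by decide +kernel, by decide +kernel, by decide +kernel, by decide +kernel, by decide +kernel⟩

theorem ha_cases (p : T3) : ∃ i j k : ℕ, ha p = x1 ^ i * (x2 ^ j * x3 ^ k) := ⟨_, _, _, rfl⟩
theorem hc_cases (p : T3) : ∃ i j k : ℕ, hc p = y1 ^ i * (y2 ^ j * y3 ^ k) := ⟨_, _, _, rfl⟩
theorem hd_cases (p : T3) : ∃ i j k : ℕ, hd p = y1 ^ i * (y2 ^ j * w3 ^ k) := ⟨_, _, _, rfl⟩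
theorem ka_cases (p : T5) : ∃ i : ℕ, ka p = v1 ^ i := ⟨_, rfl⟩
theorem kc_cases (p : T5) : ∃ i : ℕ, kc p = v2 ^ i := ⟨_, rfl⟩
theorem kd_cases (p : T5) : ∃ i : ℕ, kd p = v3 ^ i := ⟨_, rfl⟩

theorem y3_mem : ∃ q : T3, hc q = y3 := by decide +kernel
theorem v2_mem : ∃ q : T5, kc q = v2 := by decide +kernel

theorem s0_card : s0.support.card = 8 := by decide +kernel
theorem s0_sq : s0 * s0 = 1 := by decide +kernel

section emb

variable {Ω : Type*} [DecidableEq Ω] [Fintype Ω]

/-- **The model inside a symmetric group.** -/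
theorem exists_emb' {n : ℕ} (hn : n ≤ Fintype.card Ω) {s0 : Perm (Fin n)} (h0 : s0 * s0 = 1) {s : Perm Ω}
    (hs : s * s = 1) (hc : s.support.card = s0.support.card) :
    ∃ ι : Perm (Fin n) →* Perm Ω, Function.Injective ι ∧ ι s0 = s ∧ ∀ x, sign (ι x) = sign x := by
  obtain ⟨i⟩ : Nonempty (Fin n ↪ Ω) := Function.Embedding.nonempty_of_card_le (by rw [Fintype.card_fin]; exact hn)
  let e := i.toEquivRange
  let ι0 : Perm (Fin n) →* Perm Ω := extendDomainHom e
  have h1 : IsConj (ι0 s0) s := by
    apply TenModel.isConj_of_card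
    · rw [← map_mul, h0, map_one]
    · exact hs
    · rw [hc]; exact card_support_extend_domain e
  obtain ⟨g, hg⟩ := isConj_iff.1 h1
  refine ⟨(MulAut.conj g).toMonoidHom.comp ι0, (MulAut.conj g).injective.comp (extendDomainHom_injective e), hg, ?_⟩
  intro x
  change sign (g * ι0 x * g⁻¹) = sign x
  rw [Perm.sign_mul, Perm.sign_mul, mul_right_comm, ← Perm.sign_mul, mul_inv_cancel, Perm.sign_one, one_mul]
  exact sign_extendDomain x e

end emb

end Cfsg.Agent.H313.OddSixModel
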