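import Cfsg.Agent.H313.Red
import Cfsg.Agent.H313.SLTwo

/-!
# The quotients of `X` by normal subgroups containing `P₁`, `P₂`
-/

set_option autoImplicit false
open Subgroup
namespace Cfsg.Agent.H313.Quot
open Cfsg.Agent.H313.SLTwo

theorem top_of_sq {X : Type*} [Group X] [Finite X] (M : Subgroup X) [hM : M.Normal] (h : ∀ x, x * x ∈ M)
    (hno : ∀ K : Subgroup X, M ≤ K → K.index ≠ 2) : M = ⊤ := by
  by_contra hne
  have : Fact (Nat.Prime 2) := ⟨Nat.prime_two⟩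
  have hp : IsPGroup 2 (X ⧸ M) := by
    intro x
    obtain ⟨x, rfl⟩ := QuotientGroup.mk'_surjective M x
    refine ⟨1, ?_⟩
    rw [pow_one, pow_two, ← map_mul]
    exact (QuotientGroup.eq_one_iff _).2 (h x)
  obtain ⟨n, hn⟩ := hp.exists_card_eq
  have hn0 : n ≠ 0 := by
    rintro rfl
    rw [pow_zero] at hn
    apply hne
    rw [← index_eq_one, index]
    exact hn
  obtain ⟨H, hH⟩ := Sylow.exists_subgroup_card_pow_prime 2 (G := X ⧸ M) (n := n - 1)
    (by rw [hn]; exact pow_dvd_pow 2 (by omega))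
  have hi : H.index = 2 := by
    have h1 := H.card_mul_index
    rw [hn, hH] at h1
    have h2 : 2 ^ n = 2 ^ (n - 1) * 2 := by rw [← pow_succ]; congr 1; omega
    rw [h2] at h1
    exact Nat.eq_of_mul_eq_mul_left (by positivity) h1
  refine hno (H.comap (QuotientGroup.mk' M)) ?_ ?_
  · intro x hx
    rw [mem_comap]
    have : QuotientGroup.mk' M x = 1 := (QuotientGroup.eq_one_iff _).2 hx
    rw [this]; exact H.one_mem
  · rw [index_comap_of_surjective _ (QuotientGroup.mk'_surjective M), hi]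

variable {X : Type*} [Group X] [Finite X]

theorem quot {τ s h : X} {L₁ L₂ B P₁ P₂ : Subgroup X} (comm : ∀ a ∈ L₁, ∀ b ∈ L₂, a * b = b * a)
    (index : B.index = 2) (s_not : s ∉ B)
    (conj₁ : ∀ a ∈ L₁, s * a * s⁻¹ ∈ L₂) (conj₂ : ∀ a ∈ L₂, s * a * s⁻¹ ∈ L₁)
    (norm₁ : ∀ b ∈ B, ∀ a ∈ L₁, b * a * b⁻¹ ∈ L₁) (norm₂ : ∀ b ∈ B, ∀ a ∈ L₂, b * a * b⁻¹ ∈ L₂)
    (inv : ∀ b ∈ B, s * b * s⁻¹ * b ∈ L₁ ⊔ L₂) (ab : ∀ b ∈ B, ∀ c ∈ B, b * c * b⁻¹ * c⁻¹ ∈ L₁ ⊔ L₂)
    (S1 : SLike L₁ τ) (S2 : SLike L₂ τ) (le₁ : P₁ ≤ L₁) (le₂ : P₂ ≤ L₂)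
    (big₁ : ∃ p ∈ P₁, p ≠ 1 ∧ p ≠ τ) (big₂ : ∃ p ∈ P₂, p ≠ 1 ∧ p ≠ τ)
    (hh : h * h = 1)
    (t₁ : ∀ N : Subgroup X, (∀ u ∈ L₁, h * u * h⁻¹ * u⁻¹ ∈ N) → L₁ ≤ N)
    (t₂ : ∀ N : Subgroup X, (∀ u ∈ L₂, h * u * h⁻¹ * u⁻¹ ∈ N) → L₂ ≤ N)
    (N : Subgroup X) (hN : N.Normal) (hP₁ : P₁ ≤ N) (hP₂ : P₂ ≤ N)
    (hno : ∀ K : Subgroup X, N ≤ K → K.index ≠ 2) : N = ⊤ := by
  -- cubes
  have cube : ∀ (L P : Subgroup X), SLike L τ → P ≤ L → (∃ p ∈ P, p ≠ 1 ∧ p ≠ τ) → P ≤ N → ∀ a ∈ L, a * a * a ∈ N := by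
    intro L P S hPL hbig hPN a ha
    rcases S.nrm (N ⊓ L) inf_le_right (fun a ha x hx =>
      ⟨hN.conj_mem x hx.1 a, L.mul_mem (L.mul_mem ha hx.2) (L.inv_mem ha)⟩) with h1 | h1
    · exfalso
      obtain ⟨p, hp, hp1, hp2⟩ := hbig
      rcases h1 p ⟨hPN hp, hPL hp⟩ with h2 | h2
      · exact hp1 h2
      · exact hp2 h2
    · exact (h1.1 a ha).1
  have cube₁ := cube L₁ P₁ S1 le₁ big₁ hP₁
  have cube₂ := cube L₂ P₂ S2 le₂ big₂ hP₂
  -- decomposition
  have dec : ∀ x, ∃ b ∈ B, ∃ n ∈ N, x = b * n := by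
    have hB : B.Normal := normal_of_index_eq_two index
    have h1 : ¬ N ≤ B := fun h => hno B h index
    have h2 : B ⊔ N = ⊤ := by
      have h3 : (B ⊔ N).index ∣ 2 := index ▸ index_dvd_of_le le_sup_left
      rcases (Nat.dvd_prime Nat.prime_two).1 h3 with h4 | h4
      · exact index_eq_one.1 h4
      · exfalso
        apply h1
        have h5 : B = B ⊔ N := by
          have h6 := relIndex_mul_index (le_sup_left : B ≤ B ⊔ N)
          rw [h4, index] at h6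
          have h7 : B.relIndex (B ⊔ N) = 1 := by omega
          exact le_antisymm le_sup_left (relIndex_eq_one.1 h7)
        rw [h5]; exact le_sup_right
    intro x
    have hx : x ∈ B ⊔ N := by rw [h2]; exact mem_top x
    rw [mem_sup_of_normal_right] at hx
    obtain ⟨b, hb, n, hn, rfl⟩ := hx
    exact ⟨b, hb, n, hn, rfl⟩
  have hB2 : ∀ x, x ∈ B ∨ ∃ b ∈ B, x = b * s := by
    intro x
    by_cases hx : x ∈ B
    · exact Or.inl hx
    · right
      refine ⟨x * s⁻¹, ?_, by group⟩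
      have := (mul_mem_iff_of_index_two index (a := x) (b := s⁻¹))
      rw [this]
      constructor
      · intro h; exact absurd h hx
      · intro h; exact absurd (B.inv_mem_iff.1 h) s_not
  have hD : (L₁ ⊔ L₂).Normal := by
    have c1 : ∀ b ∈ B, ∀ x ∈ L₁ ⊔ L₂, b * x * b⁻¹ ∈ L₁ ⊔ L₂ := by
      intro b hb x hx
      have h1 : L₁ ⊔ L₂ ≤ (L₁ ⊔ L₂).comap (MulAut.conj b).toMonoidHom := by
        rw [sup_le_iff]
        constructor
        · intro a ha
          exact mem_sup_left (norm₁ b hb a ha)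
        · intro a ha
          exact mem_sup_right (norm₂ b hb a ha)
      exact h1 hx
    have c2 : ∀ x ∈ L₁ ⊔ L₂, s * x * s⁻¹ ∈ L₁ ⊔ L₂ := by
      intro x hx
      have h1 : L₁ ⊔ L₂ ≤ (L₁ ⊔ L₂).comap (MulAut.conj s).toMonoidHom := by
        rw [sup_le_iff]
        constructor
        · intro a ha
          exact mem_sup_right (conj₁ a ha)
        · intro a ha
          exact mem_sup_left (conj₂ a ha)
      exact h1 hx
    constructor
    intro x hx g
    rcases hB2 g with h1 | ⟨b, hb, rfl⟩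
    · exact c1 g h1 x hx
    · have : b * s * x * (b * s)⁻¹ = b * (s * x * s⁻¹) * b⁻¹ := by group
      rw [this]
      exact c1 b hb _ (c2 x hx)
  set M := N ⊔ (L₁ ⊔ L₂) with hM
  have hMn : M.Normal := sup_normal _ _
  have hM' : M = ⊤ := by
    apply top_of_sq M _ (fun K hK => hno K (le_sup_left.trans hK))
    set π := QuotientGroup.mk' M with hπ
    have k1 : ∀ x, π x = 1 ↔ x ∈ M := fun x => QuotientGroup.eq_one_iff x
    obtain ⟨b₀, hb₀, n, hn, hsn⟩ := dec s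
    have e1 : π s = π b₀ := by rw [hsn, map_mul, (k1 n).2 (mem_sup_left hn), mul_one]
    have e2 : ∀ b ∈ B, π b * π b = 1 := by
      intro b hb
      have h1 := (k1 _).2 (mem_sup_right (inv b hb) : s * b * s⁻¹ * b ∈ M)
      have h2 := (k1 _).2 (mem_sup_right (ab b₀ hb₀ b hb) : b₀ * b * b₀⁻¹ * b⁻¹ ∈ M)
      simp only [map_mul, map_inv] at h1 h2
      rw [e1] at h1
      rw [mul_inv_eq_one] at h2
      rwa [h2] at h1
    intro x
    obtain ⟨b, hb, n, hn, rfl⟩ := dec x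
    rw [← k1, map_mul, map_mul, (k1 n).2 (mem_sup_left hn), mul_one]
    exact e2 b hb
  have hhN : h ∈ N := by
    set π := QuotientGroup.mk' N with hπ
    have k1 : ∀ x, π x = 1 ↔ x ∈ N := fun x => QuotientGroup.eq_one_iff x
    have h1 : h ∈ N ⊔ (L₁ ⊔ L₂) := by rw [← hM, hM']; exact mem_top _
    rw [mem_sup_of_normal_left] at h1
    obtain ⟨n, hn, d, hd, hnd⟩ := h1
    obtain ⟨a, ha, b, hb, rfl⟩ := Cit.LongAbs.mem_sup_comm comm hd
    have h3 : π h = π a * π b := by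
      rw [← hnd, map_mul, (k1 n).2 hn, one_mul, map_mul]
    have hab : π a * π b = π b * π a := by rw [← map_mul, comm a ha b hb, map_mul]
    have h4 : π h * π h * π h = 1 := by
      have e1 := (k1 _).2 (cube₁ a ha)
      have e2 := (k1 _).2 (cube₂ b hb)
      rw [map_mul, map_mul] at e1 e2
      rw [h3]
      calc π a * π b * (π a * π b) * (π a * π b) = π a * (π b * π a) * (π b * π a) * π b := by group
        _ = π a * (π a * π b) * (π a * π b) * π b := by rw [hab]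
        _ = π a * π a * (π b * π a) * π b * π b := by group
        _ = π a * π a * (π a * π b) * π b * π b := by rw [hab]
        _ = (π a * π a * π a) * (π b * π b * π b) := by group
        _ = 1 := by rw [e1, e2, mul_one]
    have h5 : π h * π h = 1 := by rw [← map_mul, hh, map_one]
    rw [h5, one_mul] at h4
    exact (k1 h).1 h4
  have m₁ : L₁ ≤ N := t₁ N fun u _ => by
    have : h * u * h⁻¹ * u⁻¹ = h * (u * h⁻¹ * u⁻¹) := by group
    rw [this]
    exact N.mul_mem hhN (hN.conj_mem _ (N.inv_mem hhN) u)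
  have m₂ : L₂ ≤ N := t₂ N fun u _ => by
    have : h * u * h⁻¹ * u⁻¹ = h * (u * h⁻¹ * u⁻¹) := by group
    rw [this]
    exact N.mul_mem hhN (hN.conj_mem _ (N.inv_mem hhN) u)
  rw [← hM', hM]
  exact (sup_eq_left.2 (sup_le m₁ m₂)).symm

end Cfsg.Agent.H313.Quot
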